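import Cfsg.Agent.Lib.BorelTits.Main
import Cfsg.Agent.Lib.StChar.Top
import Cfsg.Agent.Lib.StChar.Eta

/-!
# The centraliser of a unipotent radical

`C_G(U_J) ≤ U_J` for every proper standard parabolic subgroup of an (adjoint) Chevalley group.
-/

set_option autoImplicit false
set_option linter.unusedSectionVars false

namespace Cfsg.Agent.Lib.BorelTits.Cent

open Cfsg.Lie Cfsg.Agent.Lib.ChevBN.Elem Cfsg.Agent.Lib.ChevBN.Entries Cfsg.Agent.Lib.ChevBN.Table
open Cfsg.Agent.Lib.ChevBN.Collect Cfsg.Agent.Lib.ChevBN.Rel Cfsg.Agent.Lib.ChevBN.Torus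
open Cfsg.Agent.Lib.ChevBN.Monomial Cfsg.Agent.Lib.ChevBN.Core Cfsg.Agent.Lib.ChevBN.Pair
open Cfsg.Agent.Lib.ChevBN.Stmts Cfsg.Agent.Lib.ChevBN.Levi
open Cfsg.Agent.Lib.BNPair.Basic Cfsg.Agent.Lib.BNPair.Parabolic
open Cfsg.Agent.Lib.ChevOrder.Chev
open Cfsg.Agent.Lib.BorelTits.Weight Cfsg.Agent.Lib.BorelTits.Tbl3 Cfsg.Agent.Lib.BorelTits.Funct

variable {D : ChevalleyDatum} {F : Type*} [Field F] {η : ℕ → ℕ → ℤ}

/-! ### Weights -/

section Weights

variable {ι : Type*} [Fintype ι] [DecidableEq ι]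

theorem le_conj_sub_one {w : ι → ℝ} {c : ℝ} {y : GL ι F} (h : Le w w c ((y : Matrix ι ι F) - 1))
    {g : GL ι F} (hg : Tr w w g) : Le w w c (((g * y * g⁻¹ : GL ι F) : Matrix ι ι F) - 1) := by
  have e : ((g * y * g⁻¹ : GL ι F) : Matrix ι ι F) - 1 =
      (g : Matrix ι ι F) * ((y : Matrix ι ι F) - 1) * ((g⁻¹ : GL ι F) : Matrix ι ι F) := by
    have hgg : (g : Matrix ι ι F) * ((g⁻¹ : GL ι F) : Matrix ι ι F) = 1 := by
      rw [← Units.val_mul, mul_inv_cancel, Units.val_one]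
    rw [Units.val_mul, Units.val_mul, mul_sub, sub_mul, mul_one, hgg]
  rw [e]
  have := (hg.1.mul h).mul hg.2
  simpa using this

/-- The leading terms of conjugate matrices under a strictly raising element agree. -/
theorem eq_entry_of_conj {w : ι → ℝ} {c : ℝ} {u A A' : Matrix ι ι F} (hu : Strict w (u - 1))
    (hA : Le w w c A) (hA' : Le w w c A') (h : u * A = A' * u) {i j : ι} (hij : w i - w j = c) :
    A i j = A' i j := by
  have e : A - A' = A' * (u - 1) - (u - 1) * A := by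
    have : (u - 1) * A = u * A - A := by noncomm_ring
    rw [this, h]
    noncomm_ring
  have e2 : (A - A') i j = (A' * (u - 1) - (u - 1) * A) i j := by rw [e]
  rw [Matrix.sub_apply, Matrix.sub_apply, Matrix.mul_apply, Matrix.mul_apply] at e2
  have h1 : ∑ k, A' i k * (u - 1) k j = 0 := by
    apply Finset.sum_eq_zero
    intro k _
    by_contra hk
    have h2 := hA' i k (left_ne_zero_of_mul hk)
    have h3 := hu k j (right_ne_zero_of_mul hk)
    linarith
  have h4 : ∑ k, (u - 1) i k * A k j = 0 := by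
    apply Finset.sum_eq_zero
    intro k _
    by_contra hk
    have h2 := hu i k (left_ne_zero_of_mul hk)
    have h3 := hA k j (right_ne_zero_of_mul hk)
    linarith
  rw [h1, h4, sub_zero] at e2
  exact sub_eq_zero.mp e2

end Weights

/-! ### Characters of the torus -/

section Chi

theorem chi_add {c : ℕ → F} (hc : ∀ j < D.rank, c j ≠ 0) {r r' a : ℕ}
    (h : ∀ k < D.rank, D.cartan k r' = D.cartan k r + D.cartan k a) :
    chi D c r' = chi D c r * chi D c a := by
  simp only [chi]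
  rw [← List.prod_map_mul]
  congr 1
  apply List.map_congr_left
  intro k hk
  have hk' := List.mem_range.mp hk
  rw [h k hk', zpow_add₀ (hc k hk')]

theorem list_prod_zpow (l : List ℕ) (f : ℕ → F) (n : ℤ) :
    (l.map fun k => f k ^ n).prod = (l.map f).prod ^ n := by
  induction l with
  | nil => simp
  | cons a l ih => simp only [List.map_cons, List.prod_cons, ih, mul_zpow]

theorem chi_w (hT : Tbl D) {c : ℕ → F} (hc : ∀ j < D.rank, c j ≠ 0) {q s : ℕ} (hq : q < D.rank)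
    (hs : s < D.nroots) :
    chi D c (D.reflectRoot q s) = chi D c s * (chi D c (D.simple q)) ^ (- D.cartan q s) := by
  simp only [chi]
  rw [← list_prod_zpow, ← List.prod_map_mul]
  congr 1
  apply List.map_congr_left
  intro k hk
  have hk' := List.mem_range.mp hk
  rw [hT.cartan_w k hk' q hq s hs, ← zpow_mul, ← zpow_add₀ (hc k hk')]
  congr 1
  ring

/-- A character of the torus which is trivial on the fundamental roots is trivial. -/
theorem chi_eq_one_of_reach (hT : Tbl D) {c : ℕ → F} (hc : ∀ j < D.rank, c j ≠ 0)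
    (h1 : ∀ j < D.rank, chi D c (D.simple j) = 1) {s : ℕ} (hs : Reach D Set.univ s) :
    chi D c s = 1 := by
  induction hs with
  | base _ hl => exact h1 _ hl
  | @step q r _ hl hr ih =>
    rw [chi_w hT hc hl (hr.lt hT), ih, h1 q hl]
    simp

end Chi

variable (hR : Sys D F η) (hT : Tbl D) (hT2 : Tbl2 D) (hT3 : Tbl3 D)

include hT in
/-- The leading entry of `x_r(t) - 1`. -/
theorem le_entry {φ : Fin D.nroots → ℝ} (hφ : φ ∈ Funct D) (r : Fin D.nroots) {t : F} (ht : t ≠ 0)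
    {c : ℝ} (h : Le (wt φ) (wt φ) c (D.x F r.val t - 1)) : c ≤ φ r := by
  obtain ⟨i, hi⟩ := Tbl.exists_coroot_ne (F := F) hT r.2
  have hne : (negF hT r).val ≠ r.val := by
    intro h2
    rcases hT.pos_or_neg r.2 with h3 | h3
    · exact hT.pos_ne_neg h3 (hT.neg_of_pos h3) h2.symm
    · exact hT.pos_ne_neg (hT.pos_of_neg h3) h3 h2
  have he : (D.x F r.val t - 1) (Sum.inl i) (Sum.inr (negF hT r)) =
      (((D.coroot.getD r.val #[]).getD i.val 0 : ℤ) : F) * t := by
    rw [Matrix.sub_apply, Matrix.one_apply_ne (by simp), sub_zero,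
      x_inl_inr_neg r.2 t i (negF hT r) hne rfl]
  have h1 := h (Sum.inl i) (Sum.inr (negF hT r)) (by rw [he]; exact mul_ne_zero hi ht)
  rw [wt_inl, wt_inr, funct_neg hT hφ] at h1
  simpa using h1

include hR hT in
/-- Roots outside `Φ_J`. -/
theorem X_mem_radical {J : Set ℕ} {r j : ℕ} (hr : D.IsPosRoot r) (hj : j < D.rank) (hjJ : j ∉ J)
    (hc : cr D r j ≠ 0) (t : F) : X hR.toAddRel r t ∈ D.unipotentRadical F J := by
  rw [radical_eq hR hT]
  exact X_mem_gen _ (show r ∈ psiJ D J from ⟨hr, fun h => hc (h.2 j hj hjJ)⟩) t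

include hT hT3 in
/-- There is a positive root through `j` not orthogonal to the fundamental root `k`. -/
theorem exists_root (j k : ℕ) (hj : j < D.rank) (hk : k < D.rank) :
    ∃ r, D.IsPosRoot r ∧ cr D r j ≠ 0 ∧ D.cartan k r ≠ 0 := by
  by_cases hjk : j = k
  · subst hjk
    refine ⟨D.simple j, hT.simple_pos j hj, ?_, ?_⟩
    · rw [hT.coroot_simple j hj j hj]
      simp
    · rw [Cfsg.Agent.Lib.StChar.Eta.cartan_self hT hj]
      norm_num
  · obtain ⟨r, r', h1, h2, h3, h4, h5⟩ := hT3.add_simple k hk j hj hjk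
    by_cases h6 : D.cartan k r = 0
    · refine ⟨r', h2, h4, ?_⟩
      rw [h5 k hk, h6, zero_add, Cfsg.Agent.Lib.StChar.Eta.cartan_self hT hk]
      norm_num
    · exact ⟨r, h1, h3, h6⟩

include hR hT hT3 in
/-- An element `n_{p_k} b`, `b ∈ B`, never centralises `U_J`. -/
theorem not_mem_cent {J : Set ℕ} (hJ : ∃ i, i < D.rank ∧ i ∉ J) {k : ℕ} (hk : k < D.rank)
    {b : GL D.Idx F} (hb : b ∈ D.borelSubgroup F) :
    A hR k * b ∉ Subgroup.centralizer (D.unipotentRadical F J : Set (GL D.Idx F)) := by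
  intro hc
  obtain ⟨j, hj, hjJ⟩ := hJ
  obtain ⟨r, hr, hcr, hcart⟩ := exists_root hT hT3 j k hj hk
  obtain ⟨ψ, hψ, hreg⟩ := exists_reg hT hT3
  have hdom : Dom hT ψ := fun q hq => (hreg _ (hT.simple_pos q hq)).le
  have hBP := borel_le_Par (F := F) hR hT hT3 hψ hdom
  have hX := X_mem_radical hR hT hr hj hjJ hcr (1 : F)
  have hrl := hr.1
  have hσ := hT.w_lt k hk r hrl
  -- `b` moves `X_r` to `X_{σ r}`
  have hcomm := Subgroup.mem_centralizer_iff.mp hc _ hX
  set κ : F := (η k (D.reflectRoot k r) : F) * 1 with hκ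
  have hκ0 : κ ≠ 0 := by
    rw [hκ, mul_one]
    exact eta_ne hR hk hσ
  have h1 : b * X hR.toAddRel r 1 * b⁻¹ = X hR.toAddRel (D.reflectRoot k r) κ := by
    rw [hκ, ← A_inv_conj_X hR hT hk hrl]
    have h2 : X hR.toAddRel r 1 * (A hR k * b) = A hR k * b * X hR.toAddRel r 1 := hcomm
    calc b * X hR.toAddRel r 1 * b⁻¹
        = (A hR k)⁻¹ * (A hR k * b * X hR.toAddRel r 1) * b⁻¹ := by group
      _ = (A hR k)⁻¹ * (X hR.toAddRel r 1 * (A hR k * b)) * b⁻¹ := by rw [h2]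
      _ = _ := by group
  set r₀ : Fin D.nroots := ⟨r, hrl⟩ with hr₀
  set r₁ : Fin D.nroots := Tbl.wPerm hT hk r₀ with hr₁
  have hr₁v : r₁.val = D.reflectRoot k r := rfl
  have hw : ψ r₁ = ψ r₀ - (D.cartan k r : ℝ) * ψ (sim hT hk) := funct_w hT hψ hk r₀
  have hα : 0 < ψ (sim hT hk) := hreg _ (hT.simple_pos k hk)
  have hr0 : 0 < ψ r₀ := hreg r hr
  rcases lt_or_gt_of_ne hcart with hneg | hpos
  · -- `ψ(σ r) > ψ(r)`
    have hneg' : (D.cartan k r : ℝ) < 0 := by exact_mod_cast hneg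
    have h3 : ψ r₀ < ψ r₁ := by
      rw [hw]
      nlinarith
    have h4 : Le (wt ψ) (wt ψ) (ψ r₁) ((X hR.toAddRel r₁.val κ : Matrix D.Idx D.Idx F) - 1) := by
      rw [coe_X]
      exact le_x_sub_one hT hT3 hψ r₁ κ (by linarith)
    have h5 := le_conj_sub_one h4 (Tr.inv (hBP hb))
    have h6 : b⁻¹ * X hR.toAddRel r₁.val κ * b⁻¹⁻¹ = X hR.toAddRel r 1 := by
      rw [hr₁v, ← h1]
      group
    rw [h6, coe_X] at h5
    have h7 := le_entry hT hψ r₀ (one_ne_zero) h5
    linarith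
  · -- `ψ(σ r) < ψ(r)`
    have hpos' : (0 : ℝ) < (D.cartan k r : ℝ) := by exact_mod_cast hpos
    have h3 : ψ r₁ < ψ r₀ := by
      rw [hw]
      nlinarith
    have h4 : Le (wt ψ) (wt ψ) (ψ r₀) ((X hR.toAddRel r 1 : Matrix D.Idx D.Idx F) - 1) := by
      rw [coe_X]
      exact le_x_sub_one hT hT3 hψ r₀ 1 hr0.le
    have h5 := le_conj_sub_one h4 (hBP hb)
    rw [h1, coe_X] at h5
    have h7 := le_entry hT hψ r₁ hκ0 h5
    linarith

include hR hT hT2 hT3 in
/-- The centraliser of `U_J` in `G` lies in `B`. -/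
theorem cent_le_borel {J : Set ℕ} (hJ : ∃ i, i < D.rank ∧ i ∉ J) {c : GL D.Idx F}
    (hc : c ∈ D.group F) (hcc : c ∈ Subgroup.centralizer (D.unipotentRadical F J : Set (GL D.Idx F))) :
    c ∈ D.borelSubgroup F := by
  set C : Subgroup (GL D.Idx F) :=
    D.group F ⊓ Subgroup.centralizer (D.unipotentRadical F J : Set (GL D.Idx F)) with hC
  have hUB : D.unipotentRadical F J ≤ D.parabolicSubgroup F J :=
    le_trans (radical_le_U hR hT J) (U_le_parabolic hR hT J)
  have hBP : D.borelSubgroup F ≤ D.parabolicSubgroup F J := by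
    rw [parabolic_eq hR hT]
    exact le_sup_left
  have hBG : D.borelSubgroup F ≤ D.group F := (B_N_G hR hT).1
  have hnorm : ∀ b ∈ D.borelSubgroup F, ∀ x ∈ C, b * x * b⁻¹ ∈ C := by
    intro b hb x hx
    obtain ⟨hx1, hx2⟩ := Subgroup.mem_inf.mp hx
    refine Subgroup.mem_inf.mpr ⟨Subgroup.mul_mem _ (Subgroup.mul_mem _ (hBG hb) hx1)
      (Subgroup.inv_mem _ (hBG hb)), Subgroup.mem_centralizer_iff.mpr ?_⟩
    intro y hy
    have h1 := parabolic_le_norm hR hT hT2 J (hBP hb)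
    have h2 : b⁻¹ * y * b ∈ D.unipotentRadical F J := by
      have := parabolic_le_norm hR hT hT2 J (hBP (Subgroup.inv_mem _ hb))
      have h3 := (Subgroup.mem_normalizer_iff.mp this y).mp hy
      simpa using h3
    have h3 := Subgroup.mem_centralizer_iff.mp hx2 _ h2
    calc y * (b * x * b⁻¹) = b * ((b⁻¹ * y * b) * x) * b⁻¹ := by group
      _ = b * (x * (b⁻¹ * y * b)) * b⁻¹ := by rw [h3]
      _ = _ := by group
  let M : Subgroup ↥(D.group F) := (C ⊔ D.borelSubgroup F).subgroupOf (D.group F)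
  have hBM : (pair hR hT).B ≤ M := by
    intro b hb
    rw [Subgroup.mem_subgroupOf]
    exact Subgroup.mem_sup_right ((mem_PB hR hT).1 hb)
  have hM := eq_parabolic_of_le hBM
  have hempty : {s | s ∈ (pair hR hT).S ∧ s ∈ M} = ∅ := by
    ext s
    simp only [Set.mem_ofPred_eq, Set.mem_empty_iff_false, iff_false, not_and]
    intro hs hsM
    obtain ⟨k, hk, he⟩ := (mem_PS hR hT).1 hs
    have h1 := Subgroup.mem_subgroupOf.mp hsM
    obtain ⟨x, hx, b, hb, e⟩ := (mem_sup_iff_of_norm hnorm).mp h1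
    have h2 : x = A hR k * b⁻¹ := by
      rw [← he, e]
      group
    rw [h2] at hx
    exact not_mem_cent hR hT hT3 hJ hk (Subgroup.inv_mem _ hb) (Subgroup.mem_inf.mp hx).2
  rw [hempty] at hM
  have h3 : (⟨c, hc⟩ : ↥(D.group F)) ∈ M := by
    rw [Subgroup.mem_subgroupOf]
    exact Subgroup.mem_sup_left (Subgroup.mem_inf.mpr ⟨hc, hcc⟩)
  rw [hM] at h3
  have h4 : (pair hR hT).parabolic ∅ = (pair hR hT).B := by
    rw [Cfsg.BNPair.parabolic, Subgroup.closure_empty, sup_bot_eq]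
  rw [h4] at h3
  exact (mem_PB hR hT).1 h3

include hR hT hT2 hT3 in
/-- The centraliser of `U_J` in `G` lies in `U`. -/
theorem cent_le_U {J : Set ℕ} (hJ : ∃ i, i < D.rank ∧ i ∉ J) {c : GL D.Idx F}
    (hc : c ∈ D.group F) (hcc : c ∈ Subgroup.centralizer (D.unipotentRadical F J : Set (GL D.Idx F))) :
    c ∈ D.posUnipotent F := by
  obtain ⟨u, hu, h, hh, rfl⟩ := (mem_B_iff hR hT).mp (cent_le_borel hR hT hT2 hT3 hJ hc hcc)
  obtain ⟨ψ, hψ, hreg⟩ := exists_reg hT hT3
  have hus := U_strict hR hT hT3 hψ hreg hu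
  rw [diagonal_eq hR hT] at hh
  obtain ⟨a, ha, rfl⟩ := hh
  -- the character is trivial on the roots outside `Φ_J`
  have hκ : ∀ r (hr : D.IsPosRoot r), (∃ j, j < D.rank ∧ j ∉ J ∧ cr D r j ≠ 0) → chi D a r = 1 := by
    rintro r hr ⟨j, hj, hjJ, hcr⟩
    have hX := X_mem_radical hR hT hr hj hjJ hcr (1 : F)
    have hcomm := Subgroup.mem_centralizer_iff.mp hcc _ hX
    have h1 : hP hR a * X hR.toAddRel r 1 * (hP hR a)⁻¹ = X hR.toAddRel r (chi D a r * 1) :=
      hP_conj hR ha hr.1 1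
    have h2 : u * X hR.toAddRel r (chi D a r * 1) = X hR.toAddRel r 1 * u := by
      rw [← h1]
      calc u * (hP hR a * X hR.toAddRel r 1 * (hP hR a)⁻¹)
          = (u * hP hR a * X hR.toAddRel r 1) * (hP hR a)⁻¹ := by group
        _ = (X hR.toAddRel r 1 * (u * hP hR a)) * (hP hR a)⁻¹ := by rw [hcomm]
        _ = _ := by group
    set r₀ : Fin D.nroots := ⟨r, hr.1⟩ with hr₀
    have hr0 : 0 < ψ r₀ := hreg r hr
    set κ := chi D a r * 1 with hκdef
    have h3 : (u : Matrix D.Idx D.Idx F) * (D.x F r κ - 1) =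
        (D.x F r 1 - 1) * (u : Matrix D.Idx D.Idx F) := by
      have h4 := congrArg Units.val h2
      rw [Units.val_mul, Units.val_mul, coe_X, coe_X] at h4
      rw [mul_sub, sub_mul, h4, mul_one, one_mul]
    obtain ⟨i, hi⟩ := Tbl.exists_coroot_ne (F := F) hT hr.1
    have hne : (negF hT r₀).val ≠ r₀.val := hT.pos_ne_neg hr (hT.neg_of_pos hr) |>.symm
    have h5 := eq_entry_of_conj hus (le_x_sub_one hT hT3 hψ r₀ κ hr0.le)
      (le_x_sub_one hT hT3 hψ r₀ 1 hr0.le) h3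
      (i := Sum.inl i) (j := Sum.inr (negF hT r₀)) (by
        rw [wt_inl, wt_inr, funct_neg hT hψ]
        simp)
    rw [Matrix.sub_apply, Matrix.sub_apply, Matrix.one_apply_ne (by simp), sub_zero, sub_zero,
      x_inl_inr_neg r₀.2 κ i (negF hT r₀) hne rfl, x_inl_inr_neg r₀.2 1 i (negF hT r₀) hne rfl] at h5
    have h6 := mul_left_cancel₀ hi h5
    rw [hκdef, mul_one] at h6
    exact h6
  -- hence on the fundamental roots
  have hsim : ∀ j < D.rank, chi D a (D.simple j) = 1 := by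
    intro j hj
    by_cases hjJ : j ∈ J
    · obtain ⟨i, hi, hiJ⟩ := hJ
      have hij : i ≠ j := by
        rintro rfl
        exact hiJ hjJ
      obtain ⟨r, r', h1, h2, h3, h4, h5⟩ := hT3.add_simple j hj i hi hij
      have h6 := chi_add (c := a) ha h5
      rw [hκ r' h2 ⟨i, hi, hiJ, h4⟩, hκ r h1 ⟨i, hi, hiJ, h3⟩, one_mul] at h6
      exact h6.symm
    · refine hκ _ (hT.simple_pos j hj) ⟨j, hj, hjJ, ?_⟩
      rw [hT.coroot_simple j hj j hj]
      simp
  have hone : hP hR a = 1 := by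
    apply Units.ext
    rw [coe_hP hR ha, Units.val_one]
    have : (fun s : Fin D.nroots => chi D a s) = fun _ => 1 := by
      funext s
      exact chi_eq_one_of_reach hT ha hsim (reach_univ hT s.2)
    rw [this, dgMat_one]
  rw [hone, mul_one]
  exact hu

/-- The standard parabolic data only depend on the indices below the rank. -/
theorem radical_eq_of_forall {J J' : Set ℕ} (h : ∀ i < D.rank, i ∈ J ↔ i ∈ J') :
    D.unipotentRadical F J = D.unipotentRadical F J' := by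
  rw [ChevalleyDatum.unipotentRadical, ChevalleyDatum.unipotentRadical]
  congr 1
  ext g
  simp only [Set.mem_ofPred_eq, ChevalleyDatum.InRootSub]
  constructor
  · rintro ⟨r, t, h1, h2, h3⟩
    exact ⟨r, t, h1, fun h4 => h2 ⟨h4.1, fun i hi hiJ => h4.2 i hi (fun h5 => hiJ ((h i hi).mpr h5))⟩, h3⟩
  · rintro ⟨r, t, h1, h2, h3⟩
    exact ⟨r, t, h1, fun h4 => h2 ⟨h4.1, fun i hi hiJ => h4.2 i hi (fun h5 => hiJ ((h i hi).mp h5))⟩, h3⟩

theorem parabolic_eq_of_forall {J J' : Set ℕ} (h : ∀ i < D.rank, i ∈ J ↔ i ∈ J') :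
    D.parabolicSubgroup F J = D.parabolicSubgroup F J' := by
  rw [ChevalleyDatum.parabolicSubgroup, ChevalleyDatum.parabolicSubgroup]
  congr 2
  ext g
  simp only [Set.mem_ofPred_eq]
  constructor
  · rintro ⟨j, h1, h2, h3⟩
    exact ⟨j, (h j h2).mp h1, h2, h3⟩
  · rintro ⟨j, h1, h2, h3⟩
    exact ⟨j, (h j h2).mpr h1, h2, h3⟩

include hR hT hT2 hT3 in
/-- The centraliser of `U_J` in `G` lies in `U_J`, for `J` proper. -/
theorem cent_le_radical [Finite F] {J : Set ℕ} (hJ : ∃ i, i < D.rank ∧ i ∉ J) {c : GL D.Idx F}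
    (hc : c ∈ D.group F) (hcc : c ∈ Subgroup.centralizer (D.unipotentRadical F J : Set (GL D.Idx F))) :
    c ∈ D.unipotentRadical F J := by
  classical
  -- reduce to index sets of `Fin`
  let K : Finset (Fin D.rank) := Finset.univ.filter fun i => i.val ∈ J
  have hKJ : ∀ i < D.rank, i ∈ J ↔ i ∈ Fin.val '' (K : Set (Fin D.rank)) := by
    intro i hi
    constructor
    · intro h
      exact ⟨⟨i, hi⟩, by simpa [K] using h, rfl⟩
    · rintro ⟨j, hj, rfl⟩
      simpa [K] using hj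
  have hrad := radical_eq_of_forall (F := F) hKJ
  have hpar := parabolic_eq_of_forall (F := F) hKJ
  obtain ⟨n, -, hnP, hw, -⟩ := Cfsg.Agent.Lib.StChar.Top.exists_top_rep hR hT K
  have hcU := cent_le_U hR hT hT2 hT3 hJ hc hcc
  rw [hrad]
  rw [← Cfsg.Agent.Lib.StChar.Top.conj_mem_B_iff hR hT hT2 (K : Set (Fin D.rank)) n hnP hw hcU]
  -- the conjugate again centralises
  set N₀ : GL D.Idx F := ((n : ↥(D.group F)) : GL D.Idx F) with hN₀
  have hnP' : N₀ ∈ D.parabolicSubgroup F J := by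
    rw [hpar]
    exact hnP
  have hN₀G : N₀ ∈ D.group F := (n : ↥(D.group F)).2
  apply U_le_B hR hT
  apply cent_le_U hR hT hT2 hT3 hJ
  · exact Subgroup.mul_mem _ (Subgroup.mul_mem _ (Subgroup.inv_mem _ hN₀G) hc) hN₀G
  · rw [Subgroup.mem_centralizer_iff]
    intro y hy
    have h1 : N₀ * y * N₀⁻¹ ∈ D.unipotentRadical F J := by
      have := parabolic_le_norm hR hT hT2 J hnP'
      exact (Subgroup.mem_normalizer_iff.mp this y).mp hy
    have h2 := Subgroup.mem_centralizer_iff.mp hcc _ h1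
    calc y * (N₀⁻¹ * c * N₀) = N₀⁻¹ * ((N₀ * y * N₀⁻¹) * c) * N₀ := by group
      _ = N₀⁻¹ * (c * (N₀ * y * N₀⁻¹)) * N₀ := by rw [h2]
      _ = _ := by group

end Cfsg.Agent.Lib.BorelTits.Cent
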