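import Cfsg.Agent.Lib.BorelTits.Tbl3
import Cfsg.Agent.Lib.ChevBN.FastData

/-! The table facts of `Tbl3` for the seven data. -/

set_option autoImplicit false

namespace Cfsg.Agent.Lib.BorelTits.Data

open Cfsg.Lie Cfsg.Agent.Lib.ChevBN.FastData Cfsg.Agent.Lib.ChevBN.Fast
open Cfsg.Agent.Lib.BorelTits.Tbl3

set_option maxRecDepth 100000

theorem a_G2 : chkAdd tabG2 chevG2 = true := by decide +kernel
theorem d_G2 : ∀ r < chevG2.nroots, chkDesc tabG2 chevG2 r = true := of_range (by decide +kernel)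
theorem v_G2 : chkReg tabG2 chevG2 = true := by decide +kernel
theorem s_G2 : (List.range chevG2.rank).all (fun j => (List.range chevG2.rank).all (chkAddS tabG2 chevG2 j)) = true := by decide +kernel
theorem tbl3_chevG2 : Tbl3 chevG2 := tbl3_of_fast tbl_chevG2 hC_G2 hR_G2 hW_G2 a_G2 d_G2 v_G2 s_G2

theorem a_B2 : chkAdd tabB2 chevB2 = true := by decide +kernel
theorem d_B2 : ∀ r < chevB2.nroots, chkDesc tabB2 chevB2 r = true := of_range (by decide +kernel)
theorem v_B2 : chkReg tabB2 chevB2 = true := by decide +kernel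
theorem s_B2 : (List.range chevB2.rank).all (fun j => (List.range chevB2.rank).all (chkAddS tabB2 chevB2 j)) = true := by decide +kernel
theorem tbl3_chevB2 : Tbl3 chevB2 := tbl3_of_fast tbl_chevB2 hC_B2 hR_B2 hW_B2 a_B2 d_B2 v_B2 s_B2

theorem a_D4 : chkAdd tabD4 chevD4 = true := by decide +kernel
theorem d_D4 : ∀ r < chevD4.nroots, chkDesc tabD4 chevD4 r = true := of_range (by decide +kernel)
theorem v_D4 : chkReg tabD4 chevD4 = true := by decide +kernel
theorem s_D4 : (List.range chevD4.rank).all (fun j => (List.range chevD4.rank).all (chkAddS tabD4 chevD4 j)) = true := by decide +kernel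
theorem tbl3_chevD4 : Tbl3 chevD4 := tbl3_of_fast tbl_chevD4 hC_D4 hR_D4 hW_D4 a_D4 d_D4 v_D4 s_D4

theorem a_F4 : chkAdd tabF4 chevF4 = true := by decide +kernel
theorem d_F4 : ∀ r < chevF4.nroots, chkDesc tabF4 chevF4 r = true := of_range (by decide +kernel)
theorem v_F4 : chkReg tabF4 chevF4 = true := by decide +kernel
theorem s_F4 : (List.range chevF4.rank).all (fun j => (List.range chevF4.rank).all (chkAddS tabF4 chevF4 j)) = true := by decide +kernel
theorem tbl3_chevF4 : Tbl3 chevF4 := tbl3_of_fast tbl_chevF4 hC_F4 hR_F4 hW_F4 a_F4 d_F4 v_F4 s_F4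

theorem a_E6 : chkAdd tabE6 chevE6 = true := by decide +kernel
theorem d_E6 : ∀ r < chevE6.nroots, chkDesc tabE6 chevE6 r = true := of_range (by decide +kernel)
theorem v_E6 : chkReg tabE6 chevE6 = true := by decide +kernel
theorem s_E6 : (List.range chevE6.rank).all (fun j => (List.range chevE6.rank).all (chkAddS tabE6 chevE6 j)) = true := by decide +kernel
theorem tbl3_chevE6 : Tbl3 chevE6 := tbl3_of_fast tbl_chevE6 hC_E6 hR_E6 hW_E6 a_E6 d_E6 v_E6 s_E6

theorem a_E7 : chkAdd tabE7 chevE7 = true := by decide +kernel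
theorem d_E7 : ∀ r < chevE7.nroots, chkDesc tabE7 chevE7 r = true := of_range (by decide +kernel)
theorem v_E7 : chkReg tabE7 chevE7 = true := by decide +kernel
theorem s_E7 : (List.range chevE7.rank).all (fun j => (List.range chevE7.rank).all (chkAddS tabE7 chevE7 j)) = true := by decide +kernel
theorem tbl3_chevE7 : Tbl3 chevE7 := tbl3_of_fast tbl_chevE7 hC_E7 hR_E7 hW_E7 a_E7 d_E7 v_E7 s_E7

theorem a_E8 : chkAdd tabE8 chevE8 = true := by decide +kernel
theorem d_E8 : ∀ r < chevE8.nroots, chkDesc tabE8 chevE8 r = true := of_range (by decide +kernel)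
theorem v_E8 : chkReg tabE8 chevE8 = true := by decide +kernel
theorem s_E8 : (List.range chevE8.rank).all (fun j => (List.range chevE8.rank).all (chkAddS tabE8 chevE8 j)) = true := by decide +kernel
theorem tbl3_chevE8 : Tbl3 chevE8 := tbl3_of_fast tbl_chevE8 hC_E8 hR_E8 hW_E8 a_E8 d_E8 v_E8 s_E8

/-- The table facts for the seven data. -/
theorem tbl3_of_mem {D : ChevalleyDatum}
    (hD : D ∈ [chevG2, chevB2, chevD4, chevF4, chevE6, chevE7, chevE8]) : Tbl3 D := by
  simp only [List.mem_cons, List.not_mem_nil, or_false] at hD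
  rcases hD with rfl | rfl | rfl | rfl | rfl | rfl | rfl
  · exact tbl3_chevG2
  · exact tbl3_chevB2
  · exact tbl3_chevD4
  · exact tbl3_chevF4
  · exact tbl3_chevE6
  · exact tbl3_chevE7
  · exact tbl3_chevE8

end Cfsg.Agent.Lib.BorelTits.Data
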