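import Cfsg.Agent.Lib.ChevBN.Fast

/-!
Table facts for the Borel–Tits theorem: the chains are additive for the Cartan integers, positive
roots descend to fundamental roots through roots with smaller index and positive Cartan integer, and
there is a regular functional.
-/

set_option autoImplicit false
set_option linter.dupNamespace false

namespace Cfsg.Agent.Lib.BorelTits.Tbl3

open Cfsg.Lie Cfsg.Agent.Lib.ChevTri.Datum Cfsg.Agent.Lib.ChevBN.Table Cfsg.Agent.Lib.ChevBN.Fast

/-- Further facts about the tables. -/
structure Tbl3 (D : ChevalleyDatum) : Prop where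
  chain_add : ∀ r < D.nroots, ∀ e ∈ (D.chain.getD r #[]).toList, ∀ q ∈ e.2.toList.zipIdx,
    ∀ j < D.rank, D.cartan j q.1.1 = D.cartan j e.1 + ((q.2 : ℤ) + 1) * D.cartan j r
  descent : ∀ r, D.IsPosRoot r → (∃ i < D.rank, r = D.simple i) ∨
    ∃ q < D.rank, 0 < D.cartan q r ∧ D.IsPosRoot (D.reflectRoot q r) ∧ D.reflectRoot q r < r
  reg : ∃ v : ℕ → ℤ, ∀ i < D.rank, 0 < Ad D v (D.simple i)
  add_simple : ∀ j < D.rank, ∀ i < D.rank, i ≠ j → ∃ r r', D.IsPosRoot r ∧ D.IsPosRoot r' ∧
    cr D r i ≠ 0 ∧ cr D r' i ≠ 0 ∧ ∀ k < D.rank, D.cartan k r' = D.cartan k r + D.cartan k (D.simple j)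

/-- Check of a row of the chain table: additivity. -/
def chkAddRow (T : FastTab) (D : ChevalleyDatum) (r : ℕ)
    (row : Array (ℕ × Array (ℕ × ℤ))) : Bool :=
  row.toList.all fun e => decide (e.1 < D.nroots) && e.2.toList.zipIdx.all fun q =>
    decide (q.1.1 < D.nroots) && (List.range D.rank).all fun j =>
      decide (T.C D j q.1.1 = T.C D j e.1 + ((q.2 : ℤ) + 1) * T.C D j r)

/-- Check of the chain table: additivity. -/
def chkAdd (T : FastTab) (D : ChevalleyDatum) : Bool :=
  decide (D.chain.size = D.nroots) &&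
    D.chain.toList.zipIdx.all (fun row => chkAddRow T D row.2 row.1)

/-- Check of the descent of a root. -/
def chkDesc (T : FastTab) (D : ChevalleyDatum) (r : ℕ) : Bool :=
  decide (r < D.nroots / 2) || (List.range D.rank).any (fun i => decide (r = D.simple i)) ||
    (List.range D.rank).any fun q => decide (0 < T.C D q r) && decide (D.nroots / 2 ≤ T.W D q r) &&
      decide (T.W D q r < r)

/-- The sum of all positive coroots. -/
def vReg (T : FastTab) (D : ChevalleyDatum) (j : ℕ) : ℤ :=
  ((List.range D.nroots).map fun r => if D.nroots / 2 ≤ r then T.R D r j else 0).sum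

/-- Check of the regular functional. -/
def chkReg (T : FastTab) (D : ChevalleyDatum) : Bool :=
  (List.range D.rank).all fun i =>
    decide (0 < ((List.range D.rank).map fun j => vReg T D j * T.C D j (D.simple i)).sum)

/-- Check of the existence of two positive roots through `i` differing by the fundamental root `j`. -/
def chkAddS (T : FastTab) (D : ChevalleyDatum) (j i : ℕ) : Bool :=
  decide (i = j) || (D.chain.getD (D.simple j) #[]).toList.any fun e =>
    decide (D.nroots / 2 ≤ e.1) && decide (e.1 < D.nroots) && decide (T.R D e.1 i ≠ 0) &&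
      e.2.toList.any fun q =>
        decide (D.nroots / 2 ≤ q.1) && decide (q.1 < D.nroots) && decide (T.R D q.1 i ≠ 0) &&
          (List.range D.rank).all fun k =>
            decide (T.C D k q.1 = T.C D k e.1 + T.C D k (D.simple j))

theorem tbl3_of_fast {T : FastTab} {D : ChevalleyDatum} (hT : Tbl D)
    (hC : chkC T D = true) (hR : chkR T D = true) (hW : ∀ i < D.rank, chkW T D i = true)
    (h1 : chkAdd T D = true) (h2 : ∀ r < D.nroots, chkDesc T D r = true)
    (h3 : chkReg T D = true)
    (h4 : (List.range D.rank).all (fun j => (List.range D.rank).all (chkAddS T D j)) = true) :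
    Tbl3 D := by
  have hc := @cartan_eq T D hC
  have hr := @cr_eq T D hR
  have hw : ∀ {i s : ℕ}, i < D.rank → s < D.nroots → D.reflectRoot i s = T.W D i s := by
    intro i s hi hs
    have := List.all_eq_true.mp (hW i hi) s (List.mem_range.mpr hs)
    simpa using this
  refine ⟨?_, ?_, ?_, ?_⟩
  · simp only [chkAdd, chkAddRow, Bool.and_eq_true, decide_eq_true_eq, List.all_eq_true,
      List.mem_range] at h1
    obtain ⟨h1s, h1r⟩ := h1
    intro r hr e he q hq j hj
    have hr'' : r < D.chain.size := by omega
    have hm : (D.chain.toList[r]'(by simpa using hr''), r) ∈ D.chain.toList.zipIdx := by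
      rw [List.mem_zipIdx_iff_getElem?]
      simp [hr'']
    have h4' : D.chain.getD r #[] = D.chain.toList[r]'(by simpa using hr'') := by
      rw [Array.getD_eq_getD_getElem?]
      simp [hr'']
    rw [h4'] at he
    obtain ⟨he1, h5⟩ := h1r _ hm e he
    obtain ⟨hq1, h6⟩ := h5 q hq
    rw [hc hj hq1, hc hj he1, hc hj hr]
    exact h6 j hj
  · intro r hrp
    have hrl := hrp.1
    have hpr := (isPos_iff hT.good hrl).mp hrp
    have h4 := h2 r hrl
    simp only [chkDesc, Bool.or_eq_true, decide_eq_true_eq, List.any_eq_true, List.mem_range,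
      Bool.and_eq_true] at h4
    rcases h4 with (h | ⟨i, hi, h⟩) | ⟨q, hq, ⟨h5, h6⟩, h7⟩
    · omega
    · exact Or.inl ⟨i, hi, h⟩
    · refine Or.inr ⟨q, hq, ?_, ?_, ?_⟩
      · rw [hc hq hrl]
        exact h5
      · rw [hw hq hrl]
        exact (isPos_iff hT.good (by omega)).mpr h6
      · rw [hw hq hrl]
        exact h7
  · refine ⟨vReg T D, ?_⟩
    simp only [chkReg, List.all_eq_true, List.mem_range, decide_eq_true_eq] at h3
    intro i hi
    have h5 := h3 i hi
    have hp := hT.simple_lt hi
    have e : Ad D (vReg T D) (D.simple i) =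
        ((List.range D.rank).map fun j => vReg T D j * T.C D j (D.simple i)).sum := by
      rw [Ad]
      congr 1
      apply List.map_congr_left
      intro j hj
      rw [hc (List.mem_range.mp hj) hp]
    rw [e]
    exact h5
  · intro j hj i hi hij
    have h5 := List.all_eq_true.mp (List.all_eq_true.mp h4 j (List.mem_range.mpr hj)) i
      (List.mem_range.mpr hi)
    simp only [chkAddS, Bool.or_eq_true, decide_eq_true_eq, List.any_eq_true, Bool.and_eq_true,
      List.all_eq_true, List.mem_range] at h5
    rcases h5 with h5 | ⟨e, -, ⟨⟨h6, h7⟩, h8⟩, q, -, ⟨⟨h9, h10⟩, h11⟩, h12⟩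
    · exact absurd h5 hij
    · refine ⟨e.1, q.1, (isPos_iff hT.good h7).mpr h6, (isPos_iff hT.good h10).mpr h9, ?_, ?_, ?_⟩
      · rw [hr h7 hi]
        exact h8
      · rw [hr h10 hi]
        exact h11
      · intro k hk
        rw [hc hk h10, hc hk h7, hc hk (hT.simple_lt hj)]
        exact h12 k hk

end Cfsg.Agent.Lib.BorelTits.Tbl3
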