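import Cfsg.Agent.Lib.BorelTits.Weight
import Cfsg.Agent.Lib.BorelTits.Tbl3
import Cfsg.Agent.Lib.ChevBN.Levi

/-!
# Functionals on the root lattice as weights of the adjoint representation

The space `Funct D` of functions on the roots spanned by the Cartan integers, the action of the Weyl
group on it, and the resulting weights on the coordinates of a Chevalley group.
-/

set_option autoImplicit false
set_option linter.unusedSectionVars false
set_option linter.dupNamespace false

namespace Cfsg.Agent.Lib.BorelTits.Funct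

open Cfsg.Lie Cfsg.Agent.Lib.ChevBN.Elem Cfsg.Agent.Lib.ChevBN.Entries Cfsg.Agent.Lib.ChevBN.Table
open Cfsg.Agent.Lib.ChevBN.Collect Cfsg.Agent.Lib.ChevBN.Rel Cfsg.Agent.Lib.ChevBN.Torus
open Cfsg.Agent.Lib.ChevBN.Monomial Cfsg.Agent.Lib.ChevBN.Core Cfsg.Agent.Lib.ChevBN.Pair
open Cfsg.Agent.Lib.ChevBN.Stmts Cfsg.Agent.Lib.ChevBN.Levi
open Cfsg.Agent.Lib.ChevTri.Level Cfsg.Agent.Lib.ChevTri.Datum
open Cfsg.Agent.Lib.BorelTits.Weight Cfsg.Agent.Lib.BorelTits.Tbl3

variable {D : ChevalleyDatum} {F : Type*} [Field F] {η : ℕ → ℕ → ℤ}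

/-- The Cartan integers as functions on the roots. -/
def cf (D : ChevalleyDatum) (j : Fin D.rank) : Fin D.nroots → ℝ := fun s => (D.cartan j s : ℝ)

/-- The functionals on the root lattice, as functions on the roots. -/
def Funct (D : ChevalleyDatum) : Submodule ℝ (Fin D.nroots → ℝ) :=
  Submodule.span ℝ (Set.range (cf D))

/-- The weight of the coordinates given by a function on the roots. -/
def wt (φ : Fin D.nroots → ℝ) : D.Idx → ℝ := Sum.elim (fun _ => 0) φ

@[simp] theorem wt_inl (φ : Fin D.nroots → ℝ) (i : Fin D.rank) : wt φ (Sum.inl i) = 0 := rfl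
@[simp] theorem wt_inr (φ : Fin D.nroots → ℝ) (s : Fin D.nroots) : wt φ (Sum.inr s) = φ s := rfl

theorem wt_neg (φ : Fin D.nroots → ℝ) : wt (-φ) = fun i => - wt φ i := by
  funext i
  rcases i with i | s <;> simp

/-- The fundamental root as an element of `Fin`. -/
def sim (hT : Tbl D) {q : ℕ} (hq : q < D.rank) : Fin D.nroots := ⟨D.simple q, hT.simple_lt hq⟩

section Laws

variable (hT : Tbl D) (hT3 : Tbl3 D)

theorem funct_neg {φ : Fin D.nroots → ℝ} (hφ : φ ∈ Funct D) (s : Fin D.nroots) :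
    φ (negF hT s) = - φ s := by
  induction hφ using Submodule.span_induction with
  | mem x h =>
    obtain ⟨j, rfl⟩ := h
    simp only [cf, negF]
    rw [hT.cartan_neg j j.2 s s.2]
    push_cast
    rfl
  | zero => simp
  | add x y _ _ h1 h2 =>
    simp only [Pi.add_apply, h1, h2]
    ring
  | smul a x _ h =>
    simp only [Pi.smul_apply, h, smul_eq_mul]
    ring

theorem funct_w {φ : Fin D.nroots → ℝ} (hφ : φ ∈ Funct D) {q : ℕ} (hq : q < D.rank)
    (s : Fin D.nroots) :
    φ (Tbl.wPerm hT hq s) = φ s - (D.cartan q s : ℝ) * φ (sim hT hq) := by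
  induction hφ using Submodule.span_induction with
  | mem x h =>
    obtain ⟨j, rfl⟩ := h
    simp only [cf, Tbl.wPerm_val, sim]
    rw [hT.cartan_w j j.2 q hq s s.2]
    push_cast
    ring
  | zero => simp
  | add x y _ _ h1 h2 =>
    simp only [Pi.add_apply, h1, h2]
    ring
  | smul a x _ h =>
    simp only [Pi.smul_apply, h, smul_eq_mul]
    ring

include hT3 in
theorem funct_chain {φ : Fin D.nroots → ℝ} (hφ : φ ∈ Funct D) (r : Fin D.nroots)
    {e : ℕ × Array (ℕ × ℤ)} (he : e ∈ (D.chain.getD r.val #[]).toList) {q : (ℕ × ℤ) × ℕ}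
    (hq : q ∈ e.2.toList.zipIdx) {s u : Fin D.nroots} (hs : e.1 = s.val) (hu : q.1.1 = u.val) :
    φ u = φ s + ((q.2 : ℝ) + 1) * φ r := by
  induction hφ using Submodule.span_induction with
  | mem x h =>
    obtain ⟨j, rfl⟩ := h
    simp only [cf]
    have := hT3.chain_add r r.2 e he q hq j j.2
    rw [hs, hu] at this
    rw [this]
    push_cast
    ring
  | zero => simp
  | add x y _ _ h1 h2 =>
    simp only [Pi.add_apply, h1, h2]
    ring
  | smul a x _ h =>
    simp only [Pi.smul_apply, h, smul_eq_mul]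
    ring

theorem funct_comp_w {φ : Fin D.nroots → ℝ} (hφ : φ ∈ Funct D) {q : ℕ} (hq : q < D.rank) :
    φ ∘ Tbl.wPerm hT hq ∈ Funct D := by
  induction hφ using Submodule.span_induction with
  | mem x h =>
    obtain ⟨j, rfl⟩ := h
    have e : cf D j ∘ Tbl.wPerm hT hq =
        cf D j - (D.cartan j (D.simple q) : ℝ) • cf D ⟨q, hq⟩ := by
      funext s
      simp only [cf, Function.comp_apply, Tbl.wPerm_val, Pi.sub_apply, Pi.smul_apply, smul_eq_mul]
      rw [hT.cartan_w j j.2 q hq s s.2]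
      push_cast
      ring
    rw [e]
    exact Submodule.sub_mem _ (Submodule.subset_span ⟨j, rfl⟩)
      (Submodule.smul_mem _ _ (Submodule.subset_span ⟨⟨q, hq⟩, rfl⟩))
  | zero =>
    exact Submodule.zero_mem _
  | add x y _ _ h1 h2 =>
    exact Submodule.add_mem _ h1 h2
  | smul a x _ h =>
    exact Submodule.smul_mem _ a h

/-- Nonzero chain terms come from the chain table. -/
theorem mem_chain_zip {r s u : ℕ} {t : F}
    (h : ((D.chainCoeff r s u).map fun km => ((km.2 : ℤ) : F) * t ^ km.1).sum ≠ 0) :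
    ∃ e ∈ (D.chain.getD r #[]).toList, e.1 = s ∧ ∃ q ∈ e.2.toList.zipIdx, q.1.1 = u := by
  have hne : D.chainCoeff r s u ≠ [] := by
    intro hnil
    rw [hnil] at h
    simp at h
  rw [ChevalleyDatum.chainCoeff] at hne
  obtain ⟨x, hx⟩ := List.exists_mem_of_ne_nil _ hne
  simp only [List.mem_flatMap, List.mem_filter, List.mem_map, decide_eq_true_eq] at hx
  obtain ⟨e, ⟨he, he1⟩, q, ⟨hq, hq1⟩, -⟩ := hx
  exact ⟨e, he, he1, q, hq, hq1⟩

include hT hT3 in
/-- The entries of `x_r(t) - 1`: each raises all the weights by a positive multiple of the weight of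
`r`. -/
theorem x_sub_one_entry (r : Fin D.nroots) (t : F) {i j : D.Idx}
    (h : (D.x F r.val t - 1) i j ≠ 0) :
    ∃ k : ℕ, 1 ≤ k ∧ ∀ φ ∈ Funct D, wt φ i - wt φ j = k * φ r := by
  have hr := r.2
  rw [Matrix.sub_apply] at h
  rcases j with j' | c
  · rcases i with i' | u
    · exfalso
      apply h
      rw [x_inl_inl hr]
      by_cases hij : i' = j'
      · subst hij
        simp
      · rw [if_neg hij, Matrix.one_apply_ne (by simpa using hij)]
        simp
    · rw [Matrix.one_apply_ne (by simp), sub_zero, x_inr_inl hr] at h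
      have hu : u.val = r.val := by
        by_contra hu
        rw [if_neg hu] at h
        exact h rfl
      have hur : u = r := Fin.ext hu
      subst hur
      refine ⟨1, le_rfl, fun φ _ => ?_⟩
      simp
  · by_cases hc : c.val = r.val
    · have hcr : c = r := Fin.ext hc
      subst hcr
      exfalso
      apply h
      rcases i with i' | u
      · rw [Matrix.one_apply_ne (by simp), x_inl_inr_self hr]
        simp
      · rw [x_inr_inr_self hr]
        by_cases huc : u = c
        · subst huc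
          simp
        · have h1 : u.val ≠ c.val := fun h2 => huc (Fin.ext h2)
          rw [if_neg h1, Matrix.one_apply_ne (by simpa using huc)]
          simp
    · by_cases hn : c.val = D.neg r.val
      · have hcn : c = negF hT r := Fin.ext hn
        rcases i with i' | u
        · refine ⟨1, le_rfl, fun φ hφ => ?_⟩
          rw [wt_inl, wt_inr, hcn, funct_neg hT hφ]
          simp
        · rw [x_inr_inr_neg hr t u c hc hn] at h
          by_cases huc : u = c
          · subst huc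
            exfalso
            apply h
            simp
          · by_cases hur : u.val = r.val
            · have hur' : u = r := Fin.ext hur
              subst hur'
              refine ⟨2, by omega, fun φ hφ => ?_⟩
              rw [wt_inr, wt_inr, hcn, funct_neg hT hφ]
              push_cast
              ring
            · exfalso
              apply h
              rw [if_neg huc, if_neg hur, Matrix.one_apply_ne (by simpa using huc)]
              simp
      · rcases i with i' | u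
        · exfalso
          apply h
          rw [x_inl_inr_gen hr t i' c hc hn, Matrix.one_apply_ne (by simp)]
          simp
        · rw [x_inr_inr_gen hr t u c hc hn] at h
          have h1 : ((D.chainCoeff r c u).map fun km => ((km.2 : ℤ) : F) * t ^ km.1).sum ≠ 0 := by
            intro h2
            apply h
            rw [h2, add_zero]
            by_cases huc : u = c
            · subst huc
              simp
            · rw [if_neg huc, Matrix.one_apply_ne (by simpa using huc)]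
              simp
          obtain ⟨e, he, he1, q, hq, hq1⟩ := mem_chain_zip h1
          refine ⟨q.2 + 1, by omega, fun φ hφ => ?_⟩
          rw [wt_inr, wt_inr, funct_chain hT3 hφ r he hq he1 hq1]
          push_cast
          ring

end Laws

section Raise

variable (hR : Sys D F η) (hT : Tbl D) (hT3 : Tbl3 D)

include hT hT3 in
theorem le_x_sub_one {φ : Fin D.nroots → ℝ} (hφ : φ ∈ Funct D) (r : Fin D.nroots) (t : F)
    (hr : 0 ≤ φ r) : Le (wt φ) (wt φ) (φ r) (D.x F r.val t - 1) := by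
  intro i j hij
  obtain ⟨k, hk, h⟩ := x_sub_one_entry hT hT3 r t hij
  rw [h φ hφ]
  have hk' : (1 : ℝ) ≤ k := by exact_mod_cast hk
  nlinarith

include hR hT hT3 in
theorem X_mem_Par {φ : Fin D.nroots → ℝ} (hφ : φ ∈ Funct D) (r : Fin D.nroots) (t : F)
    (hr : 0 ≤ φ r) : X hR.toAddRel r.val t ∈ Par (F := F) (wt φ) := by
  refine ⟨?_, ?_⟩
  · rw [coe_X]
    exact le_of_sub_one hr (le_x_sub_one hT hT3 hφ r t hr)
  · rw [X_inv, coe_X]
    exact le_of_sub_one hr (le_x_sub_one hT hT3 hφ r (-t) hr)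

include hT hT3 in
theorem X_strict {φ : Fin D.nroots → ℝ} (hφ : φ ∈ Funct D) (r : Fin D.nroots) (t : F)
    (hr : 0 < φ r) {i j : D.Idx} (hij : (D.x F r.val t - 1) i j ≠ 0) : wt φ j < wt φ i := by
  have h := le_x_sub_one hT hT3 hφ r t hr.le i j hij
  linarith

include hR hT in
theorem diag_mem_Par (w : D.Idx → ℝ) {h : GL D.Idx F} (hh : h ∈ D.diagonalSubgroup F) :
    h ∈ Par (F := F) w := by
  have key : ∀ h ∈ D.diagonalSubgroup F, Le w w 0 ((h : GL D.Idx F) : Matrix D.Idx D.Idx F) := by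
    intro h hh i j hij
    obtain ⟨κ, -, h1, -⟩ := exists_of_mem_H hR hT hh
    rw [h1] at hij
    by_cases e : i = j
    · subst e
      simp
    · exact absurd (Matrix.diagonal_apply_ne _ e) hij
  exact ⟨key h hh, key _ (Subgroup.inv_mem _ hh)⟩

include hR hT in
/-- The weights on the columns of `n_{p_q}`. -/
theorem le_A (φ : Fin D.nroots → ℝ) {q : ℕ} (hq : q < D.rank) :
    Le (wt φ) (wt (φ ∘ Tbl.wPerm hT hq)) 0 ((A hR q : GL D.Idx F) : Matrix D.Idx D.Idx F) := by
  intro i j hij
  rw [coe_A] at hij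
  rcases j with j' | s
  · rcases i with i' | u
    · simp
    · exact absurd (hR.nshape₁ q hq j' u) hij
  · rcases i with i' | u
    · exact absurd (hR.nshape₂ q hq i' s) hij
    · have hu : u = Tbl.wPerm hT hq s := by
        by_contra hne
        apply hij
        apply hR.nshape₃ q hq s u
        intro h2
        exact hne (Fin.ext h2)
      subst hu
      simp

include hT in
theorem wPerm_comp (φ : Fin D.nroots → ℝ) {q : ℕ} (hq : q < D.rank) :
    φ ∘ Tbl.wPerm hT hq ∘ Tbl.wPerm hT hq = φ := by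
  funext s
  simp only [Function.comp_apply]
  congr 1
  exact Fin.ext (hT.w_w q hq s s.2)

/-- `n` acts on the weights through the permutation `π`. -/
def IsAct (n : GL D.Idx F) (π : Equiv.Perm (Fin D.nroots)) : Prop :=
  ∀ φ : Fin D.nroots → ℝ, Tr (wt φ) (wt (φ ∘ π)) n

theorem IsAct.mul {n n' : GL D.Idx F} {π π' : Equiv.Perm (Fin D.nroots)} (h : IsAct n π)
    (h' : IsAct n' π') : IsAct (n * n') (π * π') := by
  intro φ
  have h1 := h φ
  have h2 := h' (φ ∘ π)
  have e : (φ ∘ π) ∘ π' = φ ∘ (π * π' : Equiv.Perm (Fin D.nroots)) := by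
    funext s
    simp
  rw [e] at h2
  exact h1.mul h2

theorem IsAct.inv {n : GL D.Idx F} {π : Equiv.Perm (Fin D.nroots)} (h : IsAct n π) :
    IsAct n⁻¹ π⁻¹ := by
  intro φ
  have h1 := h (φ ∘ (π⁻¹ : Equiv.Perm (Fin D.nroots)))
  have e : (φ ∘ (π⁻¹ : Equiv.Perm (Fin D.nroots))) ∘ π = φ := by
    funext s
    simp
  rw [e] at h1
  exact h1.inv

include hR hT in
theorem isAct_H {h : GL D.Idx F} (hh : h ∈ D.diagonalSubgroup F) : IsAct h 1 := by
  intro φ
  exact diag_mem_Par hR hT (wt φ) hh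

include hR hT in
theorem isAct_A {q : ℕ} (hq : q < D.rank) : IsAct (A hR q) (Tbl.wPerm hT hq) := by
  intro φ
  refine ⟨le_A hR hT φ hq, ?_⟩
  have hsq := A_sq_mem hR hT hq
  have e : (A hR q)⁻¹ = (A hR q * A hR q)⁻¹ * A hR q := by group
  rw [e, Units.val_mul]
  have h1 : Le (wt (φ ∘ Tbl.wPerm hT hq)) (wt (φ ∘ Tbl.wPerm hT hq)) 0
      (((A hR q * A hR q)⁻¹ : GL D.Idx F) : Matrix D.Idx D.Idx F) :=
    (diag_mem_Par hR hT _ (Subgroup.inv_mem _ hsq)).1
  have h2 := le_A hR hT (φ ∘ Tbl.wPerm hT hq) hq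
  have e2 : (φ ∘ Tbl.wPerm hT hq) ∘ Tbl.wPerm hT hq = φ := wPerm_comp hT φ hq
  rw [e2] at h2
  have := h1.mul h2
  simpa using this

/-- The Weyl group acting on the roots. -/
def Wp (hT : Tbl D) : Subgroup (Equiv.Perm (Fin D.nroots)) :=
  Subgroup.closure {π | ∃ (q : ℕ) (hq : q < D.rank), π = Tbl.wPerm hT hq}

include hT in
theorem wPerm_mem_Wp {q : ℕ} (hq : q < D.rank) : Tbl.wPerm hT hq ∈ Wp hT :=
  Subgroup.subset_closure ⟨q, hq, rfl⟩

include hR hT in
/-- Each element of `N` acts through the Weyl group. -/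
theorem exists_Wp_of_N {n : GL D.Idx F} (hn : n ∈ D.monomialSubgroup F) :
    ∃ π ∈ Wp hT, IsAct n π := by
  let NA : Subgroup (GL D.Idx F) :=
    { carrier := {n | ∃ π ∈ Wp hT, IsAct n π}
      mul_mem' := by
        rintro a b ⟨π, hπ, h⟩ ⟨π', hπ', h'⟩
        exact ⟨π * π', Subgroup.mul_mem _ hπ hπ', h.mul h'⟩
      one_mem' := ⟨1, Subgroup.one_mem _, isAct_H hR hT (Subgroup.one_mem _)⟩
      inv_mem' := by
        rintro a ⟨π, hπ, h⟩
        exact ⟨π⁻¹, Subgroup.inv_mem _ hπ, h.inv⟩ }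
  have hle : D.monomialSubgroup F ≤ NA := by
    rw [monomial_eq hR hT]
    refine sup_le ?_ ?_
    · intro h hh
      exact ⟨1, Subgroup.one_mem _, isAct_H hR hT hh⟩
    · rw [NJ, Subgroup.closure_le]
      rintro g ⟨q, -, hl, rfl⟩
      exact ⟨_, wPerm_mem_Wp hT hl, isAct_A hR hT hl⟩
  exact hle hn

include hR hT in
/-- Each element of the Weyl group is induced by an element of `N`. -/
theorem exists_N_of_Wp {π : Equiv.Perm (Fin D.nroots)} (hπ : π ∈ Wp hT) :
    ∃ n ∈ D.monomialSubgroup F, IsAct n π := by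
  induction hπ using Subgroup.closure_induction with
  | mem x h =>
    obtain ⟨q, hq, rfl⟩ := h
    exact ⟨_, A_mem_N hR hT hq, isAct_A hR hT hq⟩
  | one =>
    exact ⟨1, Subgroup.one_mem _, isAct_H hR hT (Subgroup.one_mem _)⟩
  | mul x y _ _ h1 h2 =>
    obtain ⟨n, hn, h1⟩ := h1
    obtain ⟨n', hn', h2⟩ := h2
    exact ⟨n * n', Subgroup.mul_mem _ hn hn', h1.mul h2⟩
  | inv x _ h =>
    obtain ⟨n, hn, h⟩ := h
    exact ⟨n⁻¹, Subgroup.inv_mem _ hn, h.inv⟩

include hT in
/-- The Weyl group preserves the functionals. -/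
theorem funct_comp_Wp {π : Equiv.Perm (Fin D.nroots)} (hπ : π ∈ Wp hT) {φ : Fin D.nroots → ℝ}
    (hφ : φ ∈ Funct D) : φ ∘ π ∈ Funct D := by
  have key : ∀ φ ∈ Funct D, φ ∘ π ∈ Funct D ∧ φ ∘ (π⁻¹ : Equiv.Perm (Fin D.nroots)) ∈ Funct D := by
    induction hπ using Subgroup.closure_induction with
    | mem x h =>
      obtain ⟨q, hq, rfl⟩ := h
      intro φ hφ
      refine ⟨funct_comp_w hT hφ hq, ?_⟩
      have e : ((Tbl.wPerm hT hq)⁻¹ : Equiv.Perm (Fin D.nroots)) = Tbl.wPerm hT hq := rfl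
      rw [e]
      exact funct_comp_w hT hφ hq
    | one =>
      intro φ hφ
      exact ⟨by simpa using hφ, by simpa using hφ⟩
    | mul x y _ _ h1 h2 =>
      intro φ hφ
      constructor
      · have := (h2 _ (h1 φ hφ).1).1
        have e : (φ ∘ x) ∘ y = φ ∘ (x * y : Equiv.Perm (Fin D.nroots)) := by
          funext s
          simp
        rwa [e] at this
      · have := (h1 _ (h2 φ hφ).2).2
        have e : (φ ∘ (y⁻¹ : Equiv.Perm (Fin D.nroots))) ∘ (x⁻¹ : Equiv.Perm (Fin D.nroots)) =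
            φ ∘ ((x * y)⁻¹ : Equiv.Perm (Fin D.nroots)) := by
          funext s
          simp
        rwa [e] at this
    | inv x _ h =>
      intro φ hφ
      refine ⟨(h φ hφ).2, ?_⟩
      rw [inv_inv]
      exact (h φ hφ).1
  exact (key φ hφ).1

end Raise

section Dominant

variable (hR : Sys D F η) (hT : Tbl D) (hT2 : Tbl2 D) (hT3 : Tbl3 D)

/-- A dominant functional. -/
def Dom (hT : Tbl D) (φ : Fin D.nroots → ℝ) : Prop :=
  ∀ (q : ℕ) (hq : q < D.rank), 0 ≤ φ (sim hT hq)

/-- The fundamental roots where a functional vanishes. -/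
def Kφ (hT : Tbl D) (φ : Fin D.nroots → ℝ) : Set ℕ :=
  {q | ∃ hq : q < D.rank, φ (sim hT hq) = 0}

include hT hT3 in
theorem pos_nonneg {φ : Fin D.nroots → ℝ} (hφ : φ ∈ Funct D) (hd : Dom hT φ) :
    ∀ (r : ℕ) (hr : D.IsPosRoot r), 0 ≤ φ ⟨r, hr.1⟩ := by
  intro r
  induction r using Nat.strong_induction_on with
  | _ r ih =>
    intro hr
    rcases hT3.descent r hr with ⟨i, hi, rfl⟩ | ⟨q, hq, h1, h2, h3⟩
    · exact hd i hi
    · have h4 := ih _ h3 h2
      have e := funct_w hT hφ hq ⟨r, hr.1⟩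
      have h5 : φ ⟨D.reflectRoot q r, h2.1⟩ = φ (Tbl.wPerm hT hq ⟨r, hr.1⟩) := rfl
      rw [h5, e] at h4
      have h6 : (0 : ℝ) < (D.cartan q r : ℝ) := by exact_mod_cast h1
      have h7 := hd q hq
      have h8 : 0 ≤ (D.cartan q r : ℝ) * φ (sim hT hq) := mul_nonneg h6.le h7
      simp only at h4 h8
      linarith

include hT hT3 in
theorem pos_of_not_sub {φ : Fin D.nroots → ℝ} (hφ : φ ∈ Funct D) (hd : Dom hT φ) :
    ∀ (r : ℕ) (hr : D.IsPosRoot r), ¬ D.InRootSub (Kφ hT φ) r → 0 < φ ⟨r, hr.1⟩ := by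
  intro r
  induction r using Nat.strong_induction_on with
  | _ r ih =>
    intro hr hn
    rcases hT3.descent r hr with ⟨i, hi, rfl⟩ | ⟨q, hq, h1, h2, h3⟩
    · refine lt_of_le_of_ne (hd i hi) (Ne.symm ?_)
      intro h0
      exact hn (inRootSub_simple hT ⟨hi, h0⟩ hi)
    · obtain ⟨i, hi, hiJ, hne⟩ := exists_of_not_inRootSub hr.1 hn
      have e := funct_w hT hφ hq ⟨r, hr.1⟩
      have h5 : φ ⟨D.reflectRoot q r, h2.1⟩ = φ (Tbl.wPerm hT hq ⟨r, hr.1⟩) := rfl
      have h6 : (0 : ℝ) < (D.cartan q r : ℝ) := by exact_mod_cast h1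
      have h7 := hd q hq
      have h8 : 0 ≤ (D.cartan q r : ℝ) * φ (sim hT hq) := mul_nonneg h6.le h7
      have h9 := pos_nonneg hT hT3 hφ hd _ h2
      rw [h5, e] at h9
      simp only at h8 h9
      by_cases hiq : i = q
      · subst hiq
        have h10 : 0 < φ (sim hT hi) := by
          refine lt_of_le_of_ne h7 (Ne.symm ?_)
          intro h0
          exact hiJ ⟨hi, h0⟩
        have h11 : 0 < (D.cartan i r : ℝ) * φ (sim hT hi) := mul_pos h6 h10
        linarith
      · have h10 : ¬ D.InRootSub (Kφ hT φ) (D.reflectRoot q r) := by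
          intro h10
          have h11 : cr D (D.reflectRoot q r) i = 0 := h10.2 i hi hiJ
          rw [hT.coroot_w q hq r hr.1 i hi, if_neg hiq, sub_zero] at h11
          exact hne h11
        have h11 := ih _ h3 h2 h10
        rw [h5, e] at h11
        simp only at h11
        linarith

include hT in
theorem zero_of_reach {φ : Fin D.nroots → ℝ} (hφ : φ ∈ Funct D) {r : ℕ}
    (h : Reach D (Kφ hT φ) r) : ∀ hr : r < D.nroots, φ ⟨r, hr⟩ = 0 := by
  induction h with
  | base hi hl =>
    obtain ⟨hq, h0⟩ := hi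
    intro _
    exact h0
  | @step q r' hq hl hr' ih =>
    intro _
    have e := funct_w hT hφ hl ⟨r', hr'.lt hT⟩
    have h5 : φ ⟨D.reflectRoot q r', hT.w_lt q hl r' (hr'.lt hT)⟩ =
        φ (Tbl.wPerm hT hl ⟨r', hr'.lt hT⟩) := rfl
    rw [h5, e, ih (hr'.lt hT)]
    obtain ⟨hq', h0⟩ := hq
    rw [h0]
    simp

include hT in
theorem zero_of_sub {φ : Fin D.nroots → ℝ} (hφ : φ ∈ Funct D) {r : ℕ}
    (h : D.InRootSub (Kφ hT φ) r) (hr : r < D.nroots) : φ ⟨r, hr⟩ = 0 :=
  zero_of_reach hT hφ (reach_of_inRootSub hT h) hr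

include hR hT hT3 in
theorem borel_le_Par {φ : Fin D.nroots → ℝ} (hφ : φ ∈ Funct D) (hd : Dom hT φ) :
    D.borelSubgroup F ≤ Par (F := F) (wt φ) := by
  refine sup_le ?_ (fun h hh => diag_mem_Par hR hT _ hh)
  rw [posUnipotent_eq hR.toAddRel]
  refine gen_le _ ?_
  intro r hr t
  exact X_mem_Par hR hT hT3 hφ ⟨r, hr.1⟩ t (pos_nonneg hT hT3 hφ hd r hr)

include hR hT hT3 in
theorem radical_strict {φ : Fin D.nroots → ℝ} (hφ : φ ∈ Funct D) (hd : Dom hT φ) {u : GL D.Idx F}
    (hu : u ∈ D.unipotentRadical F (Kφ hT φ)) :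
    Strict (wt φ) ((u : Matrix D.Idx D.Idx F) - 1) := by
  rw [radical_eq hR hT] at hu
  refine gen_induction hR.toAddRel
    (P := fun u : GL D.Idx F => Strict (wt φ) ((u : Matrix D.Idx D.Idx F) - 1)) ?_ ?_ ?_ hu
  · simpa using strict_sub_one_one (F := F) (wt φ)
  · intro r hr t i j hij
    rw [coe_X] at hij
    exact X_strict hT hT3 hφ ⟨r, hr.1.1⟩ t (pos_of_not_sub hT hT3 hφ hd r hr.1 hr.2) hij
  · intro a b ha hb
    rw [Units.val_mul]
    exact ha.mul_sub_one hb

include hR hT hT3 in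
theorem levi_le {φ : Fin D.nroots → ℝ} (hφ : φ ∈ Funct D) {J : Set ℕ}
    (hJ : ∀ r, D.InRootSub J r → ∀ hr : r < D.nroots, φ ⟨r, hr⟩ = 0) :
    D.leviSubgroup F J ≤ Par (F := F) (wt φ) := by
  rw [levi_eq hR hT]
  refine sup_le (fun h hh => diag_mem_Par hR hT _ hh) ?_
  refine gen_le _ ?_
  intro r hr t
  exact X_mem_Par hR hT hT3 hφ ⟨r, hr.1⟩ t (by rw [hJ r hr hr.1])

include hR hT hT2 hT3 in
/-- An element of the parabolic subgroup of a dominant functional which raises the functional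
strictly lies in the unipotent radical. -/
theorem mem_radical_of_le {φ : Fin D.nroots → ℝ} (hφ : φ ∈ Funct D) (hd : Dom hT φ) {y : GL D.Idx F}
    (hy : y ∈ D.parabolicSubgroup F (Kφ hT φ)) {M : ℝ} (hM : 0 < M)
    (hl : Le (wt φ) (wt φ) M ((y : Matrix D.Idx D.Idx F) - 1)) :
    y ∈ D.unipotentRadical F (Kφ hT φ) := by
  set K := Kφ hT φ with hK
  have hsup := radical_sup_levi hR hT hT2 K
  have hnorm : ∀ l ∈ D.leviSubgroup F K, ∀ u ∈ D.unipotentRadical F K,
      l * u * l⁻¹ ∈ D.unipotentRadical F K := by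
    intro l hl u hu
    have h1 : l ∈ D.parabolicSubgroup F K := by
      rw [← hsup]
      exact Subgroup.mem_sup_right hl
    have h2 := parabolic_le_norm hR hT hT2 K h1
    exact (Subgroup.mem_normalizer_iff.mp h2 u).mp hu
  rw [← hsup] at hy
  obtain ⟨u, hu, l, hl', rfl⟩ := (mem_sup_iff_of_norm hnorm).mp hy
  have hus := radical_strict hR hT hT3 hφ hd hu
  have hl1 : l ∈ Par (F := F) (wt φ) := levi_le hR hT hT3 hφ (fun r hr hrl => zero_of_sub hT hφ hr hrl) hl'
  have hl2 : l ∈ Par (F := F) (fun i => - wt φ i) := by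
    rw [← wt_neg]
    refine levi_le hR hT hT3 (Submodule.neg_mem _ hφ) (fun r hr hrl => ?_) hl'
    simp only [Pi.neg_apply]
    rw [zero_of_sub hT hφ hr hrl]
    simp
  have hdeg : ∀ i j, (l : Matrix D.Idx D.Idx F) i j ≠ 0 → wt φ i = wt φ j :=
    fun i j hij => eq_of_mem_Par hl1 hl2 hij
  have hlone : l = 1 := by
    apply Units.ext
    rw [Units.val_one, ← sub_eq_zero]
    ext i j
    by_contra hne
    simp only [Matrix.zero_apply] at hne
    have hij : wt φ i = wt φ j := by
      by_cases e : i = j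
      · rw [e]
      · apply hdeg
        rwa [Matrix.sub_apply, Matrix.one_apply_ne e, sub_zero] at hne
    have e1 : ((u * l : GL D.Idx F) : Matrix D.Idx D.Idx F) - 1 =
        ((u : Matrix D.Idx D.Idx F) - 1) * (l : Matrix D.Idx D.Idx F) +
          ((l : Matrix D.Idx D.Idx F) - 1) := by
      rw [Units.val_mul]
      noncomm_ring
    have e2 : (((u : Matrix D.Idx D.Idx F) - 1) * (l : Matrix D.Idx D.Idx F)) i j = 0 := by
      rw [Matrix.mul_apply]
      apply Finset.sum_eq_zero
      intro k _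
      by_contra hk
      have h1 := hus i k (left_ne_zero_of_mul hk)
      have h2 := hdeg k j (right_ne_zero_of_mul hk)
      rw [h2, ← hij] at h1
      exact lt_irrefl _ h1
    have h3 : (((u * l : GL D.Idx F) : Matrix D.Idx D.Idx F) - 1) i j ≠ 0 := by
      rw [e1, Matrix.add_apply, e2, zero_add]
      exact hne
    have h4 := hl i j h3
    rw [hij, sub_self] at h4
    exact absurd hM (not_lt.mpr h4)
  rw [hlone, mul_one]
  exact hu

include hR hT in
theorem A_entry_ne {q : ℕ} (hq : q < D.rank) (s : Fin D.nroots) :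
    ((A hR q : GL D.Idx F) : Matrix D.Idx D.Idx F) (Sum.inr (Tbl.wPerm hT hq s)) (Sum.inr s) ≠ 0 := by
  intro h0
  have hcol : ∀ x, ((A hR q : GL D.Idx F) : Matrix D.Idx D.Idx F) x (Sum.inr s) = 0 := by
    rintro (i | u)
    · rw [coe_A]
      exact hR.nshape₂ q hq i s
    · by_cases hu : u = Tbl.wPerm hT hq s
      · rw [hu]
        exact h0
      · rw [coe_A]
        apply hR.nshape₃ q hq s u
        intro h2
        exact hu (Fin.ext h2)
  have h1 : (((A hR q)⁻¹ * A hR q : GL D.Idx F) : Matrix D.Idx D.Idx F) (Sum.inr s) (Sum.inr s) = 1 := by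
    simp
  rw [Units.val_mul, Matrix.mul_apply] at h1
  simp [hcol] at h1

include hR hT hT3 in
/-- The elements of the group preserving a dominant functional lie in its parabolic subgroup. -/
theorem mem_parabolic_of_mem_Par {φ : Fin D.nroots → ℝ} (hφ : φ ∈ Funct D) (hd : Dom hT φ)
    {x : GL D.Idx F} (hx : x ∈ D.group F) (hp : x ∈ Par (F := F) (wt φ)) :
    x ∈ D.parabolicSubgroup F (Kφ hT φ) := by
  let M : Subgroup ↥(D.group F) := (Par (F := F) (wt φ)).subgroupOf (D.group F)
  have hBM : (pair hR hT).B ≤ M := by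
    intro b hb
    rw [Subgroup.mem_subgroupOf]
    exact borel_le_Par hR hT hT3 hφ hd ((Cfsg.Agent.Lib.ChevOrder.Chev.mem_PB hR hT).1 hb)
  have hM := Cfsg.Agent.Lib.BNPair.Parabolic.eq_parabolic_of_le hBM
  have hxM : (⟨x, hx⟩ : ↥(D.group F)) ∈ M := Subgroup.mem_subgroupOf.mpr hp
  rw [hM] at hxM
  have hle : (pair hR hT).parabolic {s | s ∈ (pair hR hT).S ∧ s ∈ M} ≤
      (D.parabolicSubgroup F (Kφ hT φ)).subgroupOf (D.group F) := by
    refine sup_le ?_ ?_
    · intro b hb
      rw [Subgroup.mem_subgroupOf]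
      exact le_trans le_sup_left (le_of_eq (parabolic_eq hR hT _).symm)
        ((Cfsg.Agent.Lib.ChevOrder.Chev.mem_PB hR hT).1 hb)
    · rw [Subgroup.closure_le]
      rintro s ⟨hs, hsM⟩
      obtain ⟨k, hk, he⟩ := (Cfsg.Agent.Lib.ChevOrder.Chev.mem_PS hR hT).1 hs
      have hsM' : A hR k ∈ Par (F := F) (wt φ) := by
        have := Subgroup.mem_subgroupOf.mp hsM
        rwa [he] at this
      have hkK : k ∈ Kφ hT φ := by
        refine ⟨hk, ?_⟩
        have h1 := hsM'.1 _ _ (A_entry_ne hR hT hk (sim hT hk))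
        have h2 : Tbl.wPerm hT hk (sim hT hk) = negF hT (sim hT hk) :=
          Fin.ext (hT.w_simple k hk)
        rw [h2, wt_inr, wt_inr, funct_neg hT hφ] at h1
        have h3 := hd k hk
        linarith
      show s ∈ (D.parabolicSubgroup F (Kφ hT φ)).subgroupOf (D.group F)
      rw [Subgroup.mem_subgroupOf, he, parabolic_eq hR hT]
      exact Subgroup.mem_sup_right (A_mem_NJ hR hkK hk)
  exact Subgroup.mem_subgroupOf.mp (hle hxM)

/-- The sum of a function over the positive roots. -/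
noncomputable def posSum (D : ChevalleyDatum) (ψ : Fin D.nroots → ℝ) : ℝ :=
  ∑ s : Fin D.nroots, if D.IsPosRoot s.val then ψ s else 0

include hT in
theorem posSum_comp {ψ : Fin D.nroots → ℝ} (hψ : ψ ∈ Funct D) {q : ℕ} (hq : q < D.rank) :
    posSum D ψ - posSum D (ψ ∘ Tbl.wPerm hT hq) = 2 * ψ (sim hT hq) := by
  classical
  set σ := Tbl.wPerm hT hq with hσ
  have hσσ : ∀ s, σ (σ s) = s := fun s => Fin.ext (hT.w_w q hq s s.2)
  have e1 : posSum D (ψ ∘ σ) = ∑ s : Fin D.nroots, if D.IsPosRoot (σ s).val then ψ s else 0 := by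
    rw [posSum, ← Equiv.sum_comp σ (fun s : Fin D.nroots => if D.IsPosRoot (σ s).val then ψ s else 0)]
    apply Finset.sum_congr rfl
    intro s _
    simp only [Function.comp_apply, hσσ]
  have hα : D.IsPosRoot (sim hT hq).val := hT.simple_pos q hq
  have hσα : σ (sim hT hq) = negF hT (sim hT hq) := Fin.ext (hT.w_simple q hq)
  have hσn : σ (negF hT (sim hT hq)) = sim hT hq := by rw [← hσα, hσσ]
  have hnα : ¬ D.IsPosRoot (negF hT (sim hT hq)).val := hT.not_pos_of_neg (hT.neg_of_pos hα)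
  have hne : sim hT hq ≠ negF hT (sim hT hq) := by
    intro h
    apply hnα
    rw [← h]
    exact hα
  rw [e1, posSum, ← Finset.sum_sub_distrib,
    Finset.sum_eq_add (sim hT hq) (negF hT (sim hT hq)) hne ?_ (by simp) (by simp)]
  · rw [if_pos hα, if_neg hnα, hσα, if_neg hnα, hσn, if_pos hα, funct_neg hT hψ]
    ring
  · rintro s - ⟨hs1, hs2⟩
    -- the other roots keep their sign
    have hiff : D.IsPosRoot s.val ↔ D.IsPosRoot (σ s).val := by
      constructor
      · intro h
        exact hT.w_pos q hq s h (fun h2 => hs1 (Fin.ext h2))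
      · intro h
        have h3 : (σ s).val ≠ D.simple q := by
          intro h2
          apply hs2
          have : σ s = sim hT hq := Fin.ext h2
          rw [← hσσ s, this, hσα]
        have h4 := hT.w_pos q hq _ h h3
        have e5 : D.reflectRoot q (σ s).val = s.val := hT.w_w q hq s s.2
        rwa [e5] at h4
    by_cases h : D.IsPosRoot s.val
    · rw [if_pos h, if_pos (hiff.mp h), sub_self]
    · rw [if_neg h, if_neg (fun h2 => h (hiff.mpr h2)), sub_self]

include hT in
/-- Every functional has a dominant image under the Weyl group. -/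
theorem exists_dom {φ : Fin D.nroots → ℝ} (hφ : φ ∈ Funct D) :
    ∃ π ∈ Wp hT, Dom hT (φ ∘ π) := by
  obtain ⟨π, hπ⟩ := Finite.exists_max (fun π : ↥(Wp hT) => posSum D (φ ∘ π.val))
  refine ⟨π, π.2, fun q hq => ?_⟩
  have hψ : φ ∘ π.val ∈ Funct D := funct_comp_Wp hT π.2 hφ
  have h1 := posSum_comp hT hψ hq
  have h2 := hπ ⟨π.val * Tbl.wPerm hT hq, Subgroup.mul_mem _ π.2 (wPerm_mem_Wp hT hq)⟩
  have e : φ ∘ (π.val * Tbl.wPerm hT hq : Equiv.Perm (Fin D.nroots)) =
      (φ ∘ π.val) ∘ Tbl.wPerm hT hq := by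
    funext s
    simp
  simp only at h2
  rw [e] at h2
  linarith

include hT hT3 in
/-- There is a functional positive on all the positive roots. -/
theorem exists_reg : ∃ φ ∈ Funct D, ∀ r (hr : D.IsPosRoot r), 0 < φ ⟨r, hr.1⟩ := by
  obtain ⟨v, hv⟩ := hT3.reg
  let φ : Fin D.nroots → ℝ := ∑ j : Fin D.rank, ((v j : ℤ) : ℝ) • cf D j
  have hφ : φ ∈ Funct D :=
    Submodule.sum_mem _ fun j _ => Submodule.smul_mem _ _ (Submodule.subset_span ⟨j, rfl⟩)
  have hsim : ∀ (q : ℕ) (hq : q < D.rank), 0 < φ (sim hT hq) := by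
    intro q hq
    have h1 := hv q hq
    rw [Ad_eq_sum, Finset.sum_range] at h1
    have h2 : φ (sim hT hq) = ((∑ i : Fin D.rank, v i * D.cartan i (D.simple q) : ℤ) : ℝ) := by
      simp only [φ, Finset.sum_apply, Pi.smul_apply, smul_eq_mul, cf, sim]
      push_cast
      rfl
    rw [h2]
    exact_mod_cast h1
  refine ⟨φ, hφ, ?_⟩
  intro r
  induction r using Nat.strong_induction_on with
  | _ r ih =>
    intro hr
    rcases hT3.descent r hr with ⟨i, hi, rfl⟩ | ⟨q, hq, h1, h2, h3⟩
    · exact hsim i hi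
    · have h4 := ih _ h3 h2
      have e := funct_w hT hφ hq ⟨r, hr.1⟩
      have h5 : φ ⟨D.reflectRoot q r, h2.1⟩ = φ (Tbl.wPerm hT hq ⟨r, hr.1⟩) := rfl
      rw [h5, e] at h4
      have h6 : (0 : ℝ) < (D.cartan q r : ℝ) := by exact_mod_cast h1
      have h8 : 0 < (D.cartan q r : ℝ) * φ (sim hT hq) := mul_pos h6 (hsim q hq)
      simp only at h4 h8
      linarith

include hR hT hT3 in
/-- Elements of `U` strictly raise a regular functional. -/
theorem U_strict {φ : Fin D.nroots → ℝ} (hφ : φ ∈ Funct D)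
    (hreg : ∀ r (hr : D.IsPosRoot r), 0 < φ ⟨r, hr.1⟩) {u : GL D.Idx F}
    (hu : u ∈ D.posUnipotent F) : Strict (wt φ) ((u : Matrix D.Idx D.Idx F) - 1) := by
  rw [posUnipotent_eq hR.toAddRel] at hu
  refine gen_induction hR.toAddRel
    (P := fun u : GL D.Idx F => Strict (wt φ) ((u : Matrix D.Idx D.Idx F) - 1)) ?_ ?_ ?_ hu
  · simpa using strict_sub_one_one (F := F) (wt φ)
  · intro r hr t i j hij
    rw [coe_X] at hij
    exact X_strict hT hT3 hφ ⟨r, hr.1⟩ t (hreg r hr) hij
  · intro a b ha hb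
    rw [Units.val_mul]
    exact ha.mul_sub_one hb

end Dominant

end Cfsg.Agent.Lib.BorelTits.Funct
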