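import Cfsg.Agent.Lib.BorelTits.Funct

/-!
# The Borel–Tits theorem for Chevalley groups

Let `R` be a nontrivial subgroup of the Chevalley group which is conjugate into `U`. Among all
the conjugates of `R` and all the unit functionals on the root lattice, choose one for which the least
raise of the weight by `y - 1`, `y` in the conjugate, is largest (an analogue of Kempf's optimal
cocharacter). The optimal functional may be taken dominant and is then unique, which forces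
the normaliser of the conjugate to lie in the parabolic subgroup of the functional.
-/

set_option autoImplicit false
set_option linter.unusedSectionVars false

namespace Cfsg.Agent.Lib.BorelTits.Main

open Cfsg.Lie Cfsg.Agent.Lib.ChevBN.Elem Cfsg.Agent.Lib.ChevBN.Entries Cfsg.Agent.Lib.ChevBN.Table
open Cfsg.Agent.Lib.ChevBN.Collect Cfsg.Agent.Lib.ChevBN.Rel Cfsg.Agent.Lib.ChevBN.Torus
open Cfsg.Agent.Lib.ChevBN.Monomial Cfsg.Agent.Lib.ChevBN.Core Cfsg.Agent.Lib.ChevBN.Pair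
open Cfsg.Agent.Lib.ChevBN.Stmts Cfsg.Agent.Lib.ChevBN.Levi
open Cfsg.Agent.Lib.BNPair.Basic Cfsg.Agent.Lib.BNPair.Parabolic
open Cfsg.Agent.Lib.BorelTits.Weight Cfsg.Agent.Lib.BorelTits.Tbl3 Cfsg.Agent.Lib.BorelTits.Funct

variable {D : ChevalleyDatum} {F : Type*} [Field F] {η : ℕ → ℕ → ℤ}

/-- The square of the Euclidean norm of a function on the roots. -/
noncomputable def normSq (φ : Fin D.nroots → ℝ) : ℝ := ∑ s, φ s ^ 2

theorem normSq_comp (φ : Fin D.nroots → ℝ) (π : Equiv.Perm (Fin D.nroots)) :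
    normSq (φ ∘ π) = normSq φ :=
  Equiv.sum_comp π fun s => φ s ^ 2

theorem normSq_smul (c : ℝ) (φ : Fin D.nroots → ℝ) : normSq (c • φ) = c ^ 2 * normSq φ := by
  rw [normSq, normSq, Finset.mul_sum]
  apply Finset.sum_congr rfl
  intro s _
  simp only [Pi.smul_apply, smul_eq_mul]
  ring

theorem normSq_nonneg (φ : Fin D.nroots → ℝ) : 0 ≤ normSq φ :=
  Finset.sum_nonneg fun s _ => sq_nonneg _

/-- The unit ball of the functionals. -/
def Cset (D : ChevalleyDatum) : Set (Fin D.nroots → ℝ) := {φ | φ ∈ Funct D ∧ normSq φ ≤ 1}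

theorem isCompact_Cset : IsCompact (Cset D) := by
  apply Metric.isCompact_of_isClosed_isBounded
  · have h1 : IsClosed ((Funct D : Submodule ℝ (Fin D.nroots → ℝ)) : Set (Fin D.nroots → ℝ)) :=
      Submodule.closed_of_finiteDimensional _
    have h2 : IsClosed {φ : Fin D.nroots → ℝ | normSq φ ≤ 1} := by
      apply isClosed_le _ continuous_const
      unfold normSq
      fun_prop
    exact h1.inter h2
  · rw [Metric.isBounded_iff_subset_closedBall 0]
    refine ⟨1, fun φ hφ => mem_closedBall_zero_iff.mpr ?_⟩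
    refine (pi_norm_le_iff_of_nonneg zero_le_one).mpr fun s => ?_
    have h1 : φ s ^ 2 ≤ normSq φ :=
      Finset.single_le_sum (f := fun s => φ s ^ 2) (fun i _ => sq_nonneg _) (Finset.mem_univ s)
    have h2 : φ s ^ 2 ≤ 1 := h1.trans hφ.2
    rw [Real.norm_eq_abs]
    exact (sq_le_one_iff_abs_le_one _).mp h2

theorem continuous_wt (i : D.Idx) : Continuous fun φ : Fin D.nroots → ℝ => wt φ i := by
  rcases i with i | s
  · exact continuous_const
  · exact continuous_apply s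

theorem zero_mem_Cset : (0 : Fin D.nroots → ℝ) ∈ Cset D := by
  refine ⟨Submodule.zero_mem _, ?_⟩
  simp [normSq]

/-- The optimal functional is unique. -/
theorem eq_of_opt {Q : Subgroup (GL D.Idx F)} {M : ℝ} (hM : 0 < M) {φ φ' : Fin D.nroots → ℝ}
    (hφ : φ ∈ Cset D) (hφ' : φ' ∈ Cset D) (h1 : Low Q (wt φ) M) (h2 : Low Q (wt φ') M)
    (hmax : ∀ ψ ∈ Cset D, ∀ c, Low Q (wt ψ) c → c ≤ M) : φ = φ' := by
  by_contra hne
  set ψ : Fin D.nroots → ℝ := (1 / 2 : ℝ) • (φ + φ') with hψ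
  have hdiff : 0 < ∑ s, (φ s - φ' s) ^ 2 := by
    obtain ⟨s, hs⟩ := Function.ne_iff.mp hne
    exact Finset.sum_pos' (fun i _ => sq_nonneg _)
      ⟨s, Finset.mem_univ _, by have := sub_ne_zero.mpr hs; positivity⟩
  have hpar : normSq ψ = (normSq φ + normSq φ') / 2 - (∑ s, (φ s - φ' s) ^ 2) / 4 := by
    rw [normSq, normSq, normSq, ← Finset.sum_add_distrib, Finset.sum_div, Finset.sum_div,
      ← Finset.sum_sub_distrib]
    apply Finset.sum_congr rfl
    intro s _
    simp only [hψ, Pi.smul_apply, Pi.add_apply, smul_eq_mul]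
    ring
  have ha : normSq ψ < 1 := by
    rw [hpar]
    have := hφ.2
    have := hφ'.2
    linarith
  have ha0 := normSq_nonneg ψ
  set lam : ℝ := 1 + (1 - normSq ψ) / 4 with hlam
  have hlam1 : 1 < lam := by rw [hlam]; linarith
  have hlam2 : lam ≤ 5 / 4 := by rw [hlam]; linarith
  have hθ : lam • ψ ∈ Cset D := by
    refine ⟨Submodule.smul_mem _ _ (Submodule.smul_mem _ _ (Submodule.add_mem _ hφ.1 hφ'.1)), ?_⟩
    rw [normSq_smul]
    have e : lam ^ 2 * normSq ψ ≤ normSq ψ + (1 - normSq ψ) := by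
      have h3 : lam ^ 2 = 1 + 2 * ((1 - normSq ψ) / 4) + ((1 - normSq ψ) / 4) ^ 2 := by
        rw [hlam]; ring
      rw [h3]
      nlinarith
    linarith
  have hlow : Low Q (wt (lam • ψ)) (lam * M) := by
    intro y hy i j hij
    have h3 := h1 y hy i j hij
    have h4 := h2 y hy i j hij
    have e : wt (lam • ψ) i - wt (lam • ψ) j =
        lam * (((wt φ i - wt φ j) + (wt φ' i - wt φ' j)) / 2) := by
      rcases i with i | s <;> rcases j with j | s' <;>
        simp [hψ] <;> ring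
    rw [e]
    apply mul_le_mul_of_nonneg_left _ (by linarith)
    linarith
  have h5 := hmax _ hθ _ hlow
  nlinarith

theorem mem_map_conj {g x : GL D.Idx F} {K : Subgroup (GL D.Idx F)} (h : g⁻¹ * x * g ∈ K) :
    x ∈ K.map (MulAut.conj g).toMonoidHom := by
  refine Subgroup.mem_map.mpr ⟨_, h, ?_⟩
  simp only [MulEquiv.coe_toMonoidHom, MulAut.conj_apply]
  group

/-- The Borel–Tits theorem. -/
theorem main [Finite F] (hR : Sys D F η) (hT : Tbl D) (hT2 : Tbl2 D) (hT3 : Tbl3 D)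
    {R : Subgroup (GL D.Idx F)} (hRG : R ≤ D.group F) (hne : R ≠ ⊥)
    (hU : ∃ g ∈ D.group F, cj g R ≤ D.posUnipotent F) :
    ∃ g ∈ D.group F, ∃ J : Set ℕ, (∃ i, i < D.rank ∧ i ∉ J) ∧
      Subgroup.normalizer (R : Set (GL D.Idx F)) ⊓ D.group F ≤
        (D.parabolicSubgroup F J).map (MulAut.conj g).toMonoidHom ∧
      R ≤ (D.unipotentRadical F J).map (MulAut.conj g).toMonoidHom := by
  -- the optimal pair
  obtain ⟨g₀, φ₀, hφ₀, M, hlow₀, hmax⟩ := exists_opt (κ := ↥(D.group F))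
    (fun g => cj (g : GL D.Idx F) R) (fun g => cj_ne_bot hne) isCompact_Cset
    ⟨0, zero_mem_Cset⟩ wt continuous_wt
  have hmax' : ∀ g ∈ D.group F, ∀ e' ∈ Cset D, ∀ c, Low (cj g R) (wt e') c → c ≤ M :=
    fun g hg e' he' c hc => hmax ⟨g, hg⟩ e' he' c hc
  -- the optimal raise is positive
  have hM : 0 < M := by
    obtain ⟨g₁, hg₁, hg₁U⟩ := hU
    obtain ⟨φr, hφr, hreg⟩ := exists_reg hT hT3
    set c₀ : ℝ := 1 / (1 + normSq φr) with hc₀
    have hN := normSq_nonneg φr
    have hc₀pos : 0 < c₀ := by rw [hc₀]; positivity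
    have hin : c₀ • φr ∈ Cset D := by
      refine ⟨Submodule.smul_mem _ _ hφr, ?_⟩
      rw [normSq_smul, hc₀]
      rw [div_pow, one_pow, div_mul_eq_mul_div, one_mul, div_le_one (by positivity)]
      nlinarith
    have hreg' : ∀ r (hr : D.IsPosRoot r), 0 < (c₀ • φr) ⟨r, hr.1⟩ := by
      intro r hr
      simp only [Pi.smul_apply, smul_eq_mul]
      exact mul_pos hc₀pos (hreg r hr)
    obtain ⟨c, hc, hlow⟩ := exists_pos_low (Q := cj g₁ R) (w := wt (c₀ • φr))
      (fun y hy i j hij => U_strict hR hT hT3 hin.1 hreg' (hg₁U hy) i j hij)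
    exact hc.trans_le (hmax' g₁ hg₁ _ hin c hlow)
  -- a dominant optimal functional
  obtain ⟨π, hπ, hdom⟩ := exists_dom hT hφ₀.1
  obtain ⟨n, hn, hnact⟩ := exists_N_of_Wp (F := F) hR hT hπ
  have hNG := N_le_G hR hT
  have hBG : D.borelSubgroup F ≤ D.group F := (B_N_G hR hT).1
  set φ := φ₀ ∘ π with hφdef
  have hφ : φ ∈ Cset D := by
    refine ⟨funct_comp_Wp hT hπ hφ₀.1, ?_⟩
    rw [hφdef, normSq_comp]
    exact hφ₀.2
  set g := (g₀ : GL D.Idx F) * n with hgdef
  have hgG : g ∈ D.group F := Subgroup.mul_mem _ g₀.2 (hNG hn)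
  have hlow : Low (cj g R) (wt φ) M := by
    rw [hgdef, cj_mul]
    exact Low.conj hlow₀ (hnact φ₀)
  have hQne : cj g R ≠ ⊥ := cj_ne_bot hne
  have hBP := borel_le_Par (F := F) hR hT hT3 hφ.1 hdom
  -- the normaliser preserves the functional
  have hnorm : ∀ h ∈ D.group F, h ∈ Subgroup.normalizer (cj g R : Set (GL D.Idx F)) →
      h ∈ Par (F := F) (wt φ) := by
    intro h hh hhn
    obtain ⟨n', hn', hm⟩ := bruhat_exists (P := pair hR hT) (⟨h, hh⟩ : ↥(D.group F))
    obtain ⟨b₁, hb₁, b₂, hb₂, e⟩ := mem_C.mp hm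
    have hn'N : (n' : GL D.Idx F) ∈ D.monomialSubgroup F :=
      (Cfsg.Agent.Lib.ChevOrder.Chev.mem_PN hR hT).1 hn'
    have hb₁B : (b₁ : GL D.Idx F) ∈ D.borelSubgroup F :=
      (Cfsg.Agent.Lib.ChevOrder.Chev.mem_PB hR hT).1 hb₁
    have hb₂B : (b₂ : GL D.Idx F) ∈ D.borelSubgroup F :=
      (Cfsg.Agent.Lib.ChevOrder.Chev.mem_PB hR hT).1 hb₂
    have he : h = (b₁ : GL D.Idx F) * n' * b₂ := by
      have := congrArg Subtype.val e
      simpa using this
    set Q₂ := cj g R with hQ₂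
    set Q₃ := cj (b₁ : GL D.Idx F) Q₂ with hQ₃
    have hQ₃R : Q₃ = cj (g * (b₁ : GL D.Idx F)) R := (cj_mul g _ R).symm
    have hlow₃ : Low Q₃ (wt φ) M := Low.conj hlow (hBP hb₁B)
    have hmax₃ : ∀ ψ ∈ Cset D, ∀ c, Low Q₃ (wt ψ) c → c ≤ M := by
      intro ψ hψ c hc
      rw [hQ₃R] at hc
      exact hmax' _ (Subgroup.mul_mem _ hgG (hBG hb₁B)) ψ hψ c hc
    -- `h` normalises
    have hcj : cj h Q₂ = Q₂ := by
      ext y
      rw [mem_cj]
      exact ((Subgroup.mem_normalizer_iff.mp hhn) y).symm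
    have h4 : cj (n' : GL D.Idx F) Q₃ = cj (b₂ : GL D.Idx F)⁻¹ Q₂ := by
      rw [he, cj_mul, cj_mul] at hcj
      conv_rhs => rw [← hcj]
      rw [cj_inv_cj]
    have hlow₄ : Low (cj (n' : GL D.Idx F) Q₃) (wt φ) M := by
      rw [h4]
      exact Low.conj hlow (Tr.inv (hBP hb₂B))
    obtain ⟨π', hπ', hact⟩ := exists_Wp_of_N hR hT hn'N
    have h5 := Low.conj hlow₄ (hact.inv φ)
    rw [cj_inv_cj] at h5
    have hφ3 : φ ∘ ((π')⁻¹ : Equiv.Perm (Fin D.nroots)) ∈ Cset D := by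
      refine ⟨funct_comp_Wp hT (Subgroup.inv_mem _ hπ') hφ.1, ?_⟩
      rw [normSq_comp]
      exact hφ.2
    have h6 := eq_of_opt hM hφ hφ3 hlow₃ h5 hmax₃
    have h7 : φ ∘ π' = φ := by
      conv_lhs => rw [h6]
      funext s
      simp
    have h8 := hact φ
    rw [h7] at h8
    rw [he]
    exact Subgroup.mul_mem _ (Subgroup.mul_mem _ (hBP hb₁B) h8) (hBP hb₂B)
  refine ⟨g, hgG, Kφ hT φ, ?_, ?_, ?_⟩
  · -- the parabolic subgroup is proper
    by_contra hcon
    push Not at hcon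
    have hzero : φ = 0 := by
      funext s
      exact zero_of_sub hT hφ.1 ⟨s.2, fun i hi hiK => absurd (hcon i hi) hiK⟩ s.2
    obtain ⟨y, hy, i, j, hij⟩ := exists_entry hQne
    have := hlow y hy i j hij
    rw [hzero] at this
    have e : ∀ k, wt (0 : Fin D.nroots → ℝ) k = 0 := by
      intro k
      rcases k with k | k <;> simp
    rw [e, e] at this
    linarith
  · rintro x ⟨hx1, hx2⟩
    apply mem_map_conj
    apply mem_parabolic_of_mem_Par hR hT hT3 hφ.1 hdom
    · exact Subgroup.mul_mem _ (Subgroup.mul_mem _ (Subgroup.inv_mem _ hgG) hx2) hgG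
    · apply hnorm
      · exact Subgroup.mul_mem _ (Subgroup.mul_mem _ (Subgroup.inv_mem _ hgG) hx2) hgG
      · rw [Subgroup.mem_normalizer_iff]
        intro y
        rw [mem_cj, mem_cj]
        have e : g * (g⁻¹ * x * g * y * (g⁻¹ * x * g)⁻¹) * g⁻¹ = x * (g * y * g⁻¹) * x⁻¹ := by
          group
        rw [e]
        exact (Subgroup.mem_normalizer_iff.mp hx1) _
  · intro r hr
    apply mem_map_conj
    have hy : g⁻¹ * r * g ∈ cj g R := by
      rw [mem_cj]
      have e : g * (g⁻¹ * r * g) * g⁻¹ = r := by group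
      rwa [e]
    have hyG : g⁻¹ * r * g ∈ D.group F :=
      Subgroup.mul_mem _ (Subgroup.mul_mem _ (Subgroup.inv_mem _ hgG) (hRG hr)) hgG
    have hyP := mem_parabolic_of_mem_Par hR hT hT3 hφ.1 hdom hyG
      (hnorm _ hyG (Subgroup.le_normalizer hy))
    exact mem_radical_of_le hR hT hT2 hT3 hφ.1 hdom hyP hM (hlow _ hy)

end Cfsg.Agent.Lib.BorelTits.Main
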