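import Mathlib

/-!
# Weighted matrices and an optimal weight

A matrix `A` "raises" the weights `w'` to `w` by `c` if all its nonzero entries `A i j` have
`c ≤ w i - w' j`.  Among finitely many subgroups `Q k` of `GL` and weights ranging over a compact set
there is an optimal choice maximising the raise of `y - 1`, `y ∈ Q k`: this is the heart of
Kempf's theory of optimal destabilising cocharacters in a form which makes sense for finite groups.
-/

set_option autoImplicit false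
set_option linter.unusedSectionVars false

namespace Cfsg.Agent.Lib.BorelTits.Weight

variable {ι : Type*} [Fintype ι] [DecidableEq ι] {F : Type*} [Field F]

/-- All nonzero entries of `A` raise the column weight `w'` to the row weight `w` by at least `c`. -/
def Le (w w' : ι → ℝ) (c : ℝ) (A : Matrix ι ι F) : Prop :=
  ∀ i j, A i j ≠ 0 → c ≤ w i - w' j

theorem Le.mono {w w' : ι → ℝ} {c d : ℝ} {A : Matrix ι ι F} (h : Le w w' c A) (hd : d ≤ c) :
    Le w w' d A :=
  fun i j hij => hd.trans (h i j hij)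

theorem Le.mul {w w' w'' : ι → ℝ} {a b : ℝ} {A B : Matrix ι ι F} (hA : Le w w' a A)
    (hB : Le w' w'' b B) : Le w w'' (a + b) (A * B) := by
  intro i j hij
  rw [Matrix.mul_apply] at hij
  obtain ⟨k, -, hk⟩ := Finset.exists_ne_zero_of_sum_ne_zero hij
  have h1 := hA i k (left_ne_zero_of_mul hk)
  have h2 := hB k j (right_ne_zero_of_mul hk)
  linarith

theorem Le.add {w w' : ι → ℝ} {c : ℝ} {A B : Matrix ι ι F} (hA : Le w w' c A) (hB : Le w w' c B) :
    Le w w' c (A + B) := by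
  intro i j hij
  rw [Matrix.add_apply] at hij
  by_cases h : A i j = 0
  · rw [h, zero_add] at hij
    exact hB i j hij
  · exact hA i j h

theorem le_one (w : ι → ℝ) : Le w w 0 (1 : Matrix ι ι F) := by
  intro i j hij
  by_cases h : i = j
  · subst h
    simp
  · exact absurd (Matrix.one_apply_ne h) hij

theorem le_zero (w w' : ι → ℝ) (c : ℝ) : Le w w' c (0 : Matrix ι ι F) := by
  intro i j hij
  simp at hij

/-- If `A - 1` raises by a nonnegative amount, so does `A`. -/
theorem le_of_sub_one {w : ι → ℝ} {c : ℝ} (hc : 0 ≤ c) {A : Matrix ι ι F}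
    (h : Le w w c (A - 1)) : Le w w 0 A := by
  have := (h.mono hc).add (le_one (F := F) w)
  simpa using this

/-- `g` carries the weights `w'` to `w`, without lowering them. -/
def Tr (w w' : ι → ℝ) (g : GL ι F) : Prop :=
  Le w w' 0 (g : Matrix ι ι F) ∧ Le w' w 0 ((g⁻¹ : GL ι F) : Matrix ι ι F)

theorem Tr.one (w : ι → ℝ) : Tr (F := F) w w 1 := by
  refine ⟨?_, ?_⟩
  · simpa using le_one (F := F) w
  · simpa using le_one (F := F) w

theorem Tr.mul {w w' w'' : ι → ℝ} {g h : GL ι F} (hg : Tr w w' g) (hh : Tr w' w'' h) :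
    Tr w w'' (g * h) := by
  refine ⟨?_, ?_⟩
  · have := hg.1.mul hh.1
    simpa using this
  · have := hh.2.mul hg.2
    rw [mul_inv_rev, Units.val_mul]
    simpa using this

theorem Tr.inv {w w' : ι → ℝ} {g : GL ι F} (hg : Tr w w' g) : Tr w' w g⁻¹ := by
  refine ⟨hg.2, ?_⟩
  rw [inv_inv]
  exact hg.1

/-- The elements preserving a weight. -/
def Par (w : ι → ℝ) : Subgroup (GL ι F) where
  carrier := {g | Tr w w g}
  mul_mem' := fun ha hb => Tr.mul ha hb
  one_mem' := Tr.one w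
  inv_mem' := fun ha => Tr.inv ha

theorem mem_Par {w : ι → ℝ} {g : GL ι F} : g ∈ Par (F := F) w ↔ Tr w w g := Iff.rfl

/-- An element of `Par w ⊓ Par (-w)` has entries only in degree `0`. -/
theorem eq_of_mem_Par {w : ι → ℝ} {g : GL ι F} (h1 : g ∈ Par (F := F) w)
    (h2 : g ∈ Par (F := F) (fun i => - w i)) {i j : ι} (hij : (g : Matrix ι ι F) i j ≠ 0) :
    w i = w j := by
  have h3 := h1.1 i j hij
  have h4 := h2.1 i j hij
  linarith

/-- The conjugate `g⁻¹ Q g`. -/
def cj (g : GL ι F) (Q : Subgroup (GL ι F)) : Subgroup (GL ι F) :=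
  Q.map (MulAut.conj g⁻¹).toMonoidHom

theorem mem_cj {g y : GL ι F} {Q : Subgroup (GL ι F)} : y ∈ cj g Q ↔ g * y * g⁻¹ ∈ Q := by
  rw [cj, Subgroup.mem_map]
  constructor
  · rintro ⟨x, hx, rfl⟩
    simp only [MulEquiv.coe_toMonoidHom, MulAut.conj_apply]
    have : g * (g⁻¹ * x * g⁻¹⁻¹) * g⁻¹ = x := by group
    rwa [this]
  · intro h
    refine ⟨_, h, ?_⟩
    simp only [MulEquiv.coe_toMonoidHom, MulAut.conj_apply]
    group

theorem cj_mul (g h : GL ι F) (Q : Subgroup (GL ι F)) : cj (g * h) Q = cj h (cj g Q) := by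
  ext y
  rw [mem_cj, mem_cj, mem_cj]
  have : g * h * y * (g * h)⁻¹ = g * (h * y * h⁻¹) * g⁻¹ := by group
  rw [this]

theorem cj_inv_cj (g : GL ι F) (Q : Subgroup (GL ι F)) : cj g⁻¹ (cj g Q) = Q := by
  ext y
  rw [mem_cj, mem_cj]
  have : g * (g⁻¹ * y * g⁻¹⁻¹) * g⁻¹ = y := by group
  rw [this]

theorem cj_ne_bot {g : GL ι F} {Q : Subgroup (GL ι F)} (hQ : Q ≠ ⊥) : cj g Q ≠ ⊥ := by
  intro h
  apply hQ
  rw [eq_bot_iff]
  intro y hy
  have h1 : g⁻¹ * y * g ∈ cj g Q := by
    rw [mem_cj]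
    have : g * (g⁻¹ * y * g) * g⁻¹ = y := by group
    rwa [this]
  rw [h, Subgroup.mem_bot] at h1
  rw [Subgroup.mem_bot]
  have : y = g * (g⁻¹ * y * g) * g⁻¹ := by group
  rw [this, h1]
  group

/-- All `y - 1`, `y ∈ Q`, raise the weight `w` by at least `c`. -/
def Low (Q : Subgroup (GL ι F)) (w : ι → ℝ) (c : ℝ) : Prop :=
  ∀ y ∈ Q, Le w w c ((y : Matrix ι ι F) - 1)

theorem Low.mono {Q : Subgroup (GL ι F)} {w : ι → ℝ} {c d : ℝ} (h : Low Q w c) (hd : d ≤ c) :
    Low Q w d := fun y hy => (h y hy).mono hd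

theorem Low.of_le {Q Q' : Subgroup (GL ι F)} {w : ι → ℝ} {c : ℝ} (h : Low Q w c) (hQ : Q' ≤ Q) :
    Low Q' w c := fun y hy => h y (hQ hy)

/-- Conjugation by a weight preserving element. -/
theorem Low.conj {Q : Subgroup (GL ι F)} {w w' : ι → ℝ} {c : ℝ} (h : Low Q w c) {g : GL ι F}
    (hg : Tr w w' g) : Low (cj g Q) w' c := by
  intro y hy
  rw [mem_cj] at hy
  have h1 := h _ hy
  have e : (y : Matrix ι ι F) - 1 = ((g⁻¹ : GL ι F) : Matrix ι ι F) *
      (((g * y * g⁻¹ : GL ι F) : Matrix ι ι F) - 1) * (g : Matrix ι ι F) := by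
    have hgg : ((g⁻¹ : GL ι F) : Matrix ι ι F) * (g : Matrix ι ι F) = 1 := by
      rw [← Units.val_mul, inv_mul_cancel, Units.val_one]
    rw [mul_sub, sub_mul, mul_one, hgg, ← Units.val_mul, ← Units.val_mul]
    congr 2
    group
  rw [e]
  have := (hg.2.mul h1).mul hg.1
  simpa using this

/-- A positive raise in the weight of the elements of a group gives a uniform positive raise. -/
theorem exists_pos_low {Q : Subgroup (GL ι F)} {w : ι → ℝ}
    (h : ∀ y ∈ Q, ∀ i j, ((y : Matrix ι ι F) - 1) i j ≠ 0 → w j < w i) :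
    ∃ c : ℝ, 0 < c ∧ Low Q w c := by
  classical
  set S : Finset (ι × ι) := Finset.univ.filter fun p => w p.2 < w p.1 with hS
  by_cases hne : S.Nonempty
  · obtain ⟨p, hp, hmin⟩ := S.exists_min_image (fun p => w p.1 - w p.2) hne
    refine ⟨w p.1 - w p.2, ?_, ?_⟩
    · have := (Finset.mem_filter.mp hp).2
      linarith
    · intro y hy i j hij
      exact hmin (i, j) (Finset.mem_filter.mpr ⟨Finset.mem_univ _, h y hy i j hij⟩)
  · refine ⟨1, one_pos, ?_⟩
    intro y hy i j hij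
    exact absurd ⟨(i, j), Finset.mem_filter.mpr ⟨Finset.mem_univ _, h y hy i j hij⟩⟩ hne

/-- A nontrivial subgroup has a nonzero entry of some `y - 1`. -/
theorem exists_entry {Q : Subgroup (GL ι F)} (hQ : Q ≠ ⊥) :
    ∃ y ∈ Q, ∃ i j, ((y : Matrix ι ι F) - 1) i j ≠ 0 := by
  by_contra hcon
  push Not at hcon
  apply hQ
  rw [eq_bot_iff]
  intro y hy
  rw [Subgroup.mem_bot]
  apply Units.ext
  rw [Units.val_one, ← sub_eq_zero]
  ext i j
  exact hcon y hy i j

/-- All nonzero entries of `A` raise the weight `w` strictly. -/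
def Strict (w : ι → ℝ) (A : Matrix ι ι F) : Prop := ∀ i j, A i j ≠ 0 → w j < w i

theorem Strict.mul_sub_one {w : ι → ℝ} {a b : Matrix ι ι F} (ha : Strict w (a - 1))
    (hb : Strict w (b - 1)) : Strict w (a * b - 1) := by
  intro i j hij
  have e : a * b - 1 = (a - 1) * (b - 1) + (a - 1) + (b - 1) := by noncomm_ring
  rw [e, Matrix.add_apply, Matrix.add_apply] at hij
  by_cases h1 : (b - 1) i j = 0
  · rw [h1, add_zero] at hij
    by_cases h2 : (a - 1) i j = 0
    · rw [h2, add_zero, Matrix.mul_apply] at hij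
      obtain ⟨k, -, hk⟩ := Finset.exists_ne_zero_of_sum_ne_zero hij
      exact (hb k j (right_ne_zero_of_mul hk)).trans (ha i k (left_ne_zero_of_mul hk))
    · exact ha i j h2
  · exact hb i j h1

theorem strict_sub_one_one (w : ι → ℝ) : Strict (F := F) w ((1 : Matrix ι ι F) - 1) := by
  intro i j hij
  simp at hij

/-- The maximal raise: there is an optimal pair. -/
theorem exists_opt {κ E : Type*} [Finite κ] [Nonempty κ] [TopologicalSpace E]
    (Q : κ → Subgroup (GL ι F)) (hQ : ∀ k, Q k ≠ ⊥) {C : Set E} (hC : IsCompact C)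
    (hne : C.Nonempty) (W : E → ι → ℝ) (hW : ∀ i, Continuous fun e => W e i) :
    ∃ k, ∃ e ∈ C, ∃ M : ℝ, Low (Q k) (W e) M ∧ ∀ k', ∀ e' ∈ C, ∀ c, Low (Q k') (W e') c → c ≤ M := by
  classical
  let S : κ → Finset (ι × ι) := fun k =>
    Finset.univ.filter fun p => ∃ y ∈ Q k, ((y : Matrix ι ι F) - 1) p.1 p.2 ≠ 0
  have hS : ∀ k, (S k).Nonempty := by
    intro k
    obtain ⟨y, hy, i, j, hij⟩ := exists_entry (hQ k)
    exact ⟨(i, j), Finset.mem_filter.mpr ⟨Finset.mem_univ _, y, hy, hij⟩⟩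
  let f : κ → E → ℝ := fun k e => (S k).inf' (hS k) fun p => W e p.1 - W e p.2
  have hf : ∀ k, Continuous (f k) := by
    intro k
    rw [continuous_iff_continuousAt]
    intro e
    exact ContinuousAt.finset_inf'_apply (hS k) fun p _ =>
      ((hW p.1).sub (hW p.2)).continuousAt
  have hlow : ∀ k e, Low (Q k) (W e) (f k e) := by
    intro k e y hy i j hij
    exact Finset.inf'_le (fun p : ι × ι => W e p.1 - W e p.2)
      (Finset.mem_filter.mpr ⟨Finset.mem_univ (i, j), y, hy, hij⟩)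
  have hle : ∀ k e c, Low (Q k) (W e) c → c ≤ f k e := by
    intro k e c h
    refine Finset.le_inf' _ _ ?_
    rintro ⟨i, j⟩ hp
    obtain ⟨-, y, hy, hij⟩ := Finset.mem_filter.mp hp
    exact h y hy i j hij
  have hmax : ∀ k, ∃ e ∈ C, ∀ e' ∈ C, f k e' ≤ f k e := by
    intro k
    obtain ⟨e, he, h⟩ := hC.exists_isMaxOn hne (hf k).continuousOn
    exact ⟨e, he, fun e' he' => h he'⟩
  choose e he hemax using hmax
  obtain ⟨k, hk⟩ := Finite.exists_max (fun k => f k (e k))
  refine ⟨k, e k, he k, f k (e k), hlow k _, fun k' e' he' c hc => ?_⟩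
  exact (hle k' e' c hc).trans ((hemax k' e' he').trans (hk k'))

end Cfsg.Agent.Lib.BorelTits.Weight
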